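import Mathlib

/-!
# Fixed points of pronormal subgroups: the deficiency and the inductive lemmas
-/

set_option autoImplicit false
set_option linter.unusedSectionVars false

namespace Cfsg.Lib.Pron

open Finset MulAction
open scoped Pointwise

variable {G : Type} [Group G] {Ω : Type} [MulAction G Ω] [DecidableEq Ω]

/-- Pronormality of `K` with respect to the elements of `H`. -/
def Pro (H K : Subgroup G) : Prop := K ≤ H ∧ ∀ g ∈ H, ∀ L : Subgroup G, K ≤ L →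
  (∀ k ∈ K, g * k * g⁻¹ ∈ L) → ∃ w ∈ L, ∀ k, k ∈ K ↔ w⁻¹ * g * k * (w⁻¹ * g)⁻¹ ∈ K

/-- `x` is fixed by `K`. -/
def Fx (K : Subgroup G) (x : Ω) : Prop := ∀ k ∈ K, k • x = x

open Classical in
/-- Number of moved points minus number of fixed points. -/
noncomputable def dl (K : Subgroup G) (O : Finset Ω) : ℤ := ∑ x ∈ O, if Fx K x then -1 else 1

/-- `O` is an orbit of `H`. -/
structure Orb (H : Subgroup G) (O : Finset Ω) : Prop where
  inv : ∀ h ∈ H, ∀ x ∈ O, h • x ∈ O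
  tr : ∀ x ∈ O, ∀ y ∈ O, ∃ h ∈ H, h • x = y

open Classical in
/-- The orbit of `x` inside `U`. -/
noncomputable def ob (H : Subgroup G) (U : Finset Ω) (x : Ω) : Finset Ω :=
  U.filter fun y => ∃ h ∈ H, h • x = y

/-- The closure relation. -/
def Cl (H K : Subgroup G) (x y : Ω) : Prop := ∀ h ∈ H, Fx K (h • x) → Fx K (h • y)

open Classical in
/-- The closure of a point. -/
noncomputable def bl (H K : Subgroup G) (O : Finset Ω) (x : Ω) : Finset Ω := O.filter (Cl H K x)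

/-- `t`-fold transitivity on `O`. -/
def Tr (H : Subgroup G) (O : Finset Ω) (t : ℕ) : Prop := ∀ (B : Finset Ω) (x : Ω → Ω), B ⊆ O →
  (∀ s ∈ B, x s ∈ O) → Set.InjOn x B → #B ≤ t → ∃ h ∈ H, ∀ s ∈ B, h • s = x s

/-- The theorem for orbits of length less than `n`. -/
def AA (n : ℕ) : Prop := ∀ (G : Type) [Group G] (Ω : Type) [MulAction G Ω] [DecidableEq Ω]
  (H K : Subgroup G) (O : Finset Ω), Pro H K → Orb H O → #O < n → (∃ x ∈ O, ¬ Fx K x) → 1 ≤ dl K O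

theorem Pro_eq_1' : type_of% @Pro.eq_1 := @Pro.eq_1
theorem Fx_eq_1' : type_of% @Fx.eq_1 := @Fx.eq_1
theorem dl_eq_1' : type_of% @dl.eq_1 := @dl.eq_1
theorem ob_eq_1' : type_of% @ob.eq_1 := @ob.eq_1
theorem Cl_eq_1' : type_of% @Cl.eq_1 := @Cl.eq_1
theorem bl_eq_1' : type_of% @bl.eq_1 := @bl.eq_1
theorem Tr_eq_1' : type_of% @Tr.eq_1 := @Tr.eq_1
theorem AA_eq_1' : type_of% @AA.eq_1 := @AA.eq_1

variable {H K : Subgroup G} {O U : Finset Ω} {n : ℕ}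

theorem mem_st {X : Type} [MulAction G X] {g : G} {x : X} :
    g ∈ H ⊓ stabilizer G x ↔ g ∈ H ∧ g • x = x := Iff.rfl

theorem Pro.mono {H' : Subgroup G} (h : Pro H K) (h1 : K ≤ H') (h2 : H' ≤ H) : Pro H' K :=
  ⟨h1, fun g hg => h.2 g (h2 hg)⟩

theorem Pro.stab (h : Pro H K) {α : Ω} (hα : Fx K α) : Pro (H ⊓ stabilizer G α) K :=
  h.mono (le_inf h.1 hα) inf_le_left

theorem fx_norm {m : G} (hm : ∀ k, k ∈ K ↔ m * k * m⁻¹ ∈ K) (x : Ω) : Fx K (m • x) ↔ Fx K x := by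
  refine ⟨fun h k hk => ?_, fun h k hk => ?_⟩
  · have := h _ ((hm k).1 hk)
    rwa [mul_smul, inv_smul_smul, mul_smul, smul_left_cancel_iff] at this
  · have := h (m⁻¹ * k * m) ((hm _).2 (by simpa [mul_assoc] using hk))
    rwa [mul_smul, mul_smul, inv_smul_eq_iff] at this

theorem fx_mem {k : G} (hk : k ∈ K) (x : Ω) : Fx K (k • x) ↔ Fx K x :=
  fx_norm (fun _ => ⟨fun h => mul_mem (mul_mem hk h) (inv_mem hk), fun h => by
    simpa [mul_assoc] using mul_mem (mul_mem (inv_mem hk) h) hk⟩) x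

/-- Witt's lemma. -/
theorem Pro.witt (h : Pro H K) {g : G} (hg : g ∈ H) (T : Set Ω)
    (hT : ∀ t ∈ T, Fx K t ∧ Fx K (g • t)) :
    ∃ m ∈ H, (∀ t ∈ T, m • t = g • t) ∧ ∀ x : Ω, Fx K (m • x) ↔ Fx K x := by
  obtain ⟨w, hw, e⟩ := h.2 g hg (H ⊓ fixingSubgroup G ((g • ·) '' T))
    (le_inf h.1 fun k hk => (mem_fixingSubgroup_iff G).2 (by
      rintro _ ⟨t, ht, rfl⟩
      exact (hT t ht).2 k hk))
    (fun k hk => Subgroup.mem_inf.2 ⟨mul_mem (mul_mem hg (h.1 hk)) (inv_mem hg),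
      (mem_fixingSubgroup_iff G).2 (by
        rintro _ ⟨t, ht, rfl⟩
        simp only [mul_smul, inv_smul_smul, (hT t ht).1 k hk])⟩)
  refine ⟨w⁻¹ * g, mul_mem (inv_mem hw.1) hg, fun t ht => ?_, fx_norm e⟩
  rw [mul_smul, inv_smul_eq_iff, (mem_fixingSubgroup_iff G).1 hw.2 _ ⟨t, ht, rfl⟩]

open Classical in
theorem dl_eq (O : Finset Ω) :
    dl K O = #(O.filter fun x => ¬ Fx K x) - #(O.filter (Fx K)) := by
  rw [dl, sum_ite]
  simp
  ring

open Classical in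
theorem card_eq (K : Subgroup G) (O : Finset Ω) :
    #O = #(O.filter fun x => ¬ Fx K x) + #(O.filter (Fx K)) := by
  rw [add_comm, card_filter_add_card_filter_not]

theorem dl_sdiff {V : Finset Ω} (h : V ⊆ U) : dl K (U \ V) = dl K U - dl K V := by
  rw [dl, dl, dl, sum_sdiff_eq_sub h]

theorem dl_erase {α : Ω} (h : α ∈ O) (hα : Fx K α) : dl K (O.erase α) = dl K O + 1 := by
  rw [dl, dl, ← add_sum_erase _ _ h, if_pos hα]
  ring

theorem dl_insert {α : Ω} (h : α ∉ O) (hα : Fx K α) : dl K (insert α O) = dl K O - 1 := by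
  rw [dl, dl, sum_insert h, if_pos hα]
  ring

theorem exists_fx (hne : O.Nonempty) (h : dl K O < #O) : ∃ α ∈ O, Fx K α := by
  by_contra! e
  rw [dl, sum_congr rfl fun x hx => if_neg (e x hx)] at h
  simp at h

theorem mem_ob {x y : Ω} : y ∈ ob H U x ↔ y ∈ U ∧ ∃ h ∈ H, h • x = y := by
  classical
  rw [ob, mem_filter]

theorem ob_sub {x : Ω} : ob H U x ⊆ U := fun _ h => (mem_ob.1 h).1

theorem self_mem_ob {x : Ω} (hx : x ∈ U) : x ∈ ob H U x := mem_ob.2 ⟨hx, 1, one_mem _, one_smul _ _⟩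

theorem orb_ob (hU : ∀ h ∈ H, ∀ x ∈ U, h • x ∈ U) (x : Ω) : Orb H (ob H U x) where
  inv h hh y hy := by
    obtain ⟨h1, k, hk, rfl⟩ := mem_ob.1 hy
    exact mem_ob.2 ⟨hU h hh _ h1, h * k, mul_mem hh hk, mul_smul _ _ _⟩
  tr y hy z hz := by
    obtain ⟨-, k, hk, rfl⟩ := mem_ob.1 hy
    obtain ⟨-, l, hl, rfl⟩ := mem_ob.1 hz
    exact ⟨l * k⁻¹, mul_mem hl (inv_mem hk), by rw [mul_smul, inv_smul_smul]⟩

theorem inv_sdiff {V : Finset Ω} (hU : ∀ h ∈ H, ∀ x ∈ U, h • x ∈ U)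
    (hV : ∀ h ∈ H, ∀ x ∈ V, h • x ∈ V) : ∀ h ∈ H, ∀ x ∈ U \ V, h • x ∈ U \ V := fun h hh x hx =>
  mem_sdiff.2 ⟨hU h hh x (mem_sdiff.1 hx).1, fun e => (mem_sdiff.1 hx).2
    (inv_smul_smul h x ▸ hV _ (inv_mem hh) _ e)⟩

theorem inv_erase (hO : ∀ h ∈ H, ∀ x ∈ O, h • x ∈ O) (α : Ω) :
    ∀ h ∈ H ⊓ stabilizer G α, ∀ x ∈ O.erase α, h • x ∈ O.erase α := fun h hh x hx =>
  mem_erase.2 ⟨fun e => (mem_erase.1 hx).1 (by
    rw [← mem_stabilizer_iff.1 hh.2, smul_left_cancel_iff] at e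
    exact e), hO h hh.1 x (mem_erase.1 hx).2⟩

/-- An invariant set all of whose orbits are moved by `K`. -/
structure Gd (H K : Subgroup G) (U : Finset Ω) : Prop where
  inv : ∀ h ∈ H, ∀ x ∈ U, h • x ∈ U
  mv : ∀ x ∈ U, ∃ h ∈ H, ¬ Fx K (h • x)

theorem Gd.ob_mv (h : Gd H K U) {x : Ω} (hx : x ∈ U) : ∃ y ∈ ob H U x, ¬ Fx K y := by
  obtain ⟨g, hg, e⟩ := h.mv x hx
  exact ⟨_, mem_ob.2 ⟨h.inv g hg x hx, g, hg, rfl⟩, e⟩

theorem Gd.sdiff (h : Gd H K U) (x : Ω) : Gd H K (U \ ob H U x) :=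
  ⟨inv_sdiff h.inv (orb_ob h.inv x).inv, fun y hy => h.mv y (mem_sdiff.1 hy).1⟩

theorem Gd.one_le (hA : AA n) (hP : Pro H K) (h : Gd H K U) (hn : #U < n) (hne : U.Nonempty) :
    1 ≤ dl K U := by
  induction hm : #U using Nat.strong_induction_on generalizing U with
  | _ m ih =>
    obtain ⟨x, hx⟩ := hne
    have h1 := hA G Ω H K _ hP (orb_ob h.inv x) ((card_le_card ob_sub).trans_lt hn) (h.ob_mv hx)
    have h2 := dl_sdiff (K := K) (ob_sub (H := H) (U := U) (x := x))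
    have h3 : #(U \ ob H U x) < #U := card_lt_card (sdiff_ssubset ob_sub ⟨x, self_mem_ob hx⟩)
    rcases (U \ ob H U x).eq_empty_or_nonempty with e | e
    · rw [e, dl, sum_empty] at h2
      omega
    · have := ih _ (hm ▸ h3) (h.sdiff x) (h3.trans hn) e rfl
      omega

theorem Gd.orb_of (hA : AA n) (hP : Pro H K) (h : Gd H K U) (hn : #U < n) (hd : dl K U ≤ 1) :
    Orb H U := by
  refine ⟨h.inv, fun x hx y hy => by_contra fun e => ?_⟩
  have h1 := hA G Ω H K _ hP (orb_ob h.inv x) ((card_le_card ob_sub).trans_lt hn) (h.ob_mv hx)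
  have h2 := dl_sdiff (K := K) (ob_sub (H := H) (U := U) (x := x))
  have := (h.sdiff x).one_le hA hP ((card_le_card sdiff_subset).trans_lt hn)
    ⟨y, mem_sdiff.2 ⟨hy, fun e' => e (mem_ob.1 e').2⟩⟩
  omega

theorem three_le (hU : ∀ h ∈ K, ∀ x ∈ U, h • x ∈ U) (hd : dl K U = 1) (hx : ∃ x ∈ U, ¬ Fx K x) :
    3 ≤ #U := by
  classical
  obtain ⟨x, hx, e⟩ := hx
  have e' := e
  simp only [Fx, not_forall] at e'
  obtain ⟨k, hk, e'⟩ := e'
  have : 1 < #(U.filter fun x => ¬ Fx K x) := one_lt_card.2 ⟨k • x, mem_filter.2 ⟨hU k hk x hx,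
    mt (fx_mem hk x).1 e⟩, x, mem_filter.2 ⟨hx, e⟩, e'⟩
  have h1 := dl_eq (K := K) U
  have h2 := card_eq K U
  omega

/-! ### Blocks -/

theorem mem_bl {x y : Ω} : y ∈ bl H K O x ↔ y ∈ O ∧ Cl H K x y := by
  classical
  rw [bl, mem_filter]

theorem Cl.refl (x : Ω) : Cl H K x x := fun _ _ h => h

theorem Cl.trans {x y z : Ω} (h1 : Cl H K x y) (h2 : Cl H K y z) : Cl H K x z :=
  fun h hh e => h2 h hh (h1 h hh e)

theorem Cl.smul {x y : Ω} (h1 : Cl H K x y) {g : G} (hg : g ∈ H) : Cl H K (g • x) (g • y) :=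
  fun h hh e => by
    rw [← mul_smul] at e ⊢
    exact h1 _ (mul_mem hh hg) e

theorem Orb.smul_bl (hO : Orb H O) {g : G} (hg : g ∈ H) (x : Ω) :
    g • bl H K O x = bl H K O (g • x) := by
  ext y
  rw [← inv_smul_mem_iff, mem_bl, mem_bl]
  refine ⟨fun h => ⟨?_, ?_⟩, fun h => ⟨hO.inv _ (inv_mem hg) _ h.1, ?_⟩⟩
  · exact smul_inv_smul g y ▸ hO.inv g hg _ h.1
  · exact smul_inv_smul g y ▸ h.2.smul hg
  · exact inv_smul_smul g x ▸ h.2.smul (inv_mem hg)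

theorem Orb.card_bl (hO : Orb H O) {x y : Ω} (hx : x ∈ O) (hy : y ∈ O) :
    #(bl H K O y) = #(bl H K O x) := by
  obtain ⟨g, hg, rfl⟩ := hO.tr x hx y hy
  rw [← hO.smul_bl hg, card_smul_finset]

theorem Orb.bl_eq (hO : Orb H O) {x y : Ω} (hx : x ∈ O) (hy : y ∈ O) (h : Cl H K x y) :
    bl H K O y = bl H K O x :=
  eq_of_subset_of_card_le (fun _ hz => mem_bl.2 ⟨(mem_bl.1 hz).1, h.trans (mem_bl.1 hz).2⟩)
    (hO.card_bl hy hx).le

theorem Orb.cl_symm (hO : Orb H O) {x y : Ω} (hx : x ∈ O) (hy : y ∈ O) (h : Cl H K x y) :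
    Cl H K y x := (mem_bl.1 (hO.bl_eq hx hy h ▸ mem_bl.2 ⟨hx, Cl.refl x⟩)).2

theorem Orb.blk (hA : AA n) (hP : Pro H K) (hO : Orb H O) (hn : #O ≤ n) (hx : ∃ x ∈ O, ¬ Fx K x)
    {α : Ω} (h1 : α ∈ O) (hα : Fx K α) (h2 : 2 ≤ #(bl H K O α)) : (#(bl H K O α) : ℤ) ≤ dl K O := by
  classical
  have c1 : #O = #(O.image (bl H K O)) * #(bl H K O α) := by
    rw [card_eq_sum_card_image (bl H K O), sum_const_nat]
    intro b hb
    obtain ⟨x, hx, rfl⟩ := mem_image.1 hb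
    rw [← hO.card_bl h1 hx]
    congr 1
    ext y
    rw [mem_filter, mem_bl]
    exact and_congr_right fun hy => ⟨fun e => (mem_bl.1 (e ▸ mem_bl.2 ⟨hy, Cl.refl y⟩)).2,
      hO.bl_eq hx hy⟩
  have hO' : Orb H (O.image (bl H K O)) := by
    refine ⟨fun h hh b hb => ?_, fun b hb c hc => ?_⟩
    · obtain ⟨x, hx, rfl⟩ := mem_image.1 hb
      exact hO.smul_bl hh x ▸ mem_image_of_mem _ (hO.inv h hh x hx)
    · obtain ⟨x, hx, rfl⟩ := mem_image.1 hb
      obtain ⟨y, hy, rfl⟩ := mem_image.1 hc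
      obtain ⟨g, hg, rfl⟩ := hO.tr x hx y hy
      exact ⟨g, hg, hO.smul_bl hg x⟩
  have p : 0 < #(O.image (bl H K O)) := card_pos.2 ⟨_, mem_image_of_mem _ h1⟩
  have h3 := hA G (Finset Ω) H K _ hP hO' (by nlinarith) (by
    by_contra! e
    obtain ⟨y, hy, hy'⟩ := hx
    obtain ⟨g, hg, rfl⟩ := hO.tr α h1 y hy
    obtain ⟨w, hw, e'⟩ := hP.2 g hg (H ⊓ stabilizer G (bl H K O (g • α)))
      (le_inf hP.1 (e _ (mem_image_of_mem _ hy))) (fun k hk => mem_st.2 ⟨mul_mem (mul_mem hg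
        (hP.1 hk)) (inv_mem hg), by
          rw [← hO.smul_bl hg, mul_smul, inv_smul_smul,
            mul_smul, e _ (mem_image_of_mem _ h1) k hk]⟩)
    have k1 : w⁻¹ • g • α ∈ bl H K O (g • α) :=
      mem_stabilizer_finset'.1 (inv_mem hw.2) (mem_bl.2 ⟨hy, Cl.refl _⟩)
    have k2 := hO.cl_symm hy (mem_bl.1 k1).1 (mem_bl.1 k1).2 1 (one_mem _)
    rw [one_smul, one_smul, ← mul_smul, fx_norm e'] at k2
    exact hy' (k2 hα))
  have c2 : #(O.filter (Fx K)) ≤ #((O.image (bl H K O)).filter (Fx K)) * #(bl H K O α) := by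
    refine (card_le_card (?_ : _ ⊆ ((O.image (bl H K O)).filter (Fx K)).biUnion id)).trans
      (card_biUnion_le_card_mul _ _ _ fun b hb => ?_)
    · intro x hx
      obtain ⟨hx, hx'⟩ := mem_filter.1 hx
      refine mem_biUnion.2 ⟨_, mem_filter.2 ⟨mem_image_of_mem _ hx, fun k hk => ?_⟩,
        mem_bl.2 ⟨hx, Cl.refl x⟩⟩
      rw [hO.smul_bl (hP.1 hk), hx' k hk]
    · obtain ⟨x, hx, rfl⟩ := mem_image.1 (mem_filter.1 hb).1
      exact (hO.card_bl h1 hx).le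
  have d1 := dl_eq (K := K) O
  have d2 := card_eq K O
  have d3 := dl_eq (K := K) (O.image (bl H K O))
  have d4 := card_eq K (O.image (bl H K O))
  zify at c1 c2 d2 d4
  nlinarith

theorem Orb.gd (hP : Pro H K) (hO : Orb H O) {α : Ω} (h1 : α ∈ O) (hα : Fx K α)
    (h2 : #(bl H K O α) < 2) : Gd (H ⊓ stabilizer G α) K (O.erase α) := by
  refine ⟨inv_erase hO.inv α, fun x hx => ?_⟩
  have : ¬ Cl H K α x := fun e => absurd h2 (not_lt.2 (one_lt_card.2 ⟨x, mem_bl.2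
    ⟨(mem_erase.1 hx).2, e⟩, α, mem_bl.2 ⟨h1, Cl.refl α⟩, (mem_erase.1 hx).1⟩))
  simp only [Cl, not_forall] at this
  obtain ⟨h, hh, e1, e2⟩ := this
  obtain ⟨m, hm, e3, e4⟩ := hP.witt hh {α} (by simpa using ⟨hα, e1⟩)
  refine ⟨m⁻¹ * h, mem_st.2 ⟨mul_mem (inv_mem hm) hh, ?_⟩, ?_⟩
  · rw [mul_smul, inv_smul_eq_iff, e3 α rfl]
  · rwa [← e4, mul_smul, smul_inv_smul]

/-! ### Multiple transitivity -/

theorem Tr.mono {t t' : ℕ} (h : Tr H O t) (e : t' ≤ t) : Tr H O t' :=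
  fun B x h1 h2 h3 h4 => h B x h1 h2 h3 (h4.trans e)

theorem tr_zero : Tr H O 0 := fun B x _ _ _ h => ⟨1, one_mem _, by simp [card_eq_zero.1 (Nat.le_zero.1 h)]⟩

theorem Orb.tr_succ (hO : Orb H O) {α : Ω} (h1 : α ∈ O) {t : ℕ}
    (h : Tr (H ⊓ stabilizer G α) (O.erase α) t) : Tr H O (t + 1) := by
  intro B x hB hx hi hc
  rcases B.eq_empty_or_nonempty with rfl | ⟨s, hs⟩
  · exact ⟨1, one_mem _, by simp⟩
  obtain ⟨a, ha, ea⟩ := hO.tr s (hB hs) α h1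
  obtain ⟨b, hb, eb⟩ := hO.tr (x s) (hx s hs) α h1
  obtain ⟨g, hg, e⟩ := h (a • B.erase s) (fun y => b • x (a⁻¹ • y)) (fun y hy' => by
      obtain ⟨y, hy, rfl⟩ := mem_smul_finset.1 hy'
      exact mem_erase.2 ⟨ea ▸ fun e => (mem_erase.1 hy).1 (smul_left_cancel a e),
        hO.inv a ha y (hB (mem_erase.1 hy).2)⟩)
    (fun y hy' => by
      obtain ⟨y, hy, rfl⟩ := mem_smul_finset.1 hy'
      rw [inv_smul_smul]
      exact mem_erase.2 ⟨eb ▸ fun e => (mem_erase.1 hy).1 (hi (mem_erase.1 hy).2 hs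
        (smul_left_cancel b e)), hO.inv b hb _ (hx y (mem_erase.1 hy).2)⟩)
    (fun y hy' z hz' e => by
      obtain ⟨y, hy, rfl⟩ := mem_smul_finset.1 hy'
      obtain ⟨z, hz, rfl⟩ := mem_smul_finset.1 hz'
      simp only [inv_smul_smul, smul_left_cancel_iff] at e
      rw [hi (mem_erase.1 hy).2 (mem_erase.1 hz).2 e])
    (by rw [card_smul_finset, card_erase_of_mem hs]; omega)
  refine ⟨b⁻¹ * g * a, mul_mem (mul_mem (inv_mem hb) hg.1) ha, fun y hy => ?_⟩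
  rw [mul_smul, mul_smul, inv_smul_eq_iff]
  by_cases e' : y = s
  · rw [e', ea, eb, mem_stabilizer_iff.1 hg.2]
  · rw [e _ (smul_mem_smul_finset (mem_erase.2 ⟨e', hy⟩)), inv_smul_smul]

theorem Orb.tr_one (hO : Orb H O) {α : Ω} (h1 : α ∈ O) : Tr H O 1 := hO.tr_succ h1 tr_zero

theorem Tr.two (h : Tr H O 2) {a b a' b' : Ω} (ha : a ∈ O) (hb : b ∈ O) (ha' : a' ∈ O) (hb' : b' ∈ O)
    (e : a ≠ b) (e' : a' ≠ b') : ∃ g ∈ H, g • a = a' ∧ g • b = b' := by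
  obtain ⟨g, hg, k⟩ := h {a, b} (fun y => if y = a then a' else b') (by simp [insert_subset_iff, *])
    (fun s _ => by split_ifs <;> assumption) (by
      rintro y hy z hz
      simp only [coe_insert, coe_singleton, Set.mem_insert_iff, Set.mem_singleton_iff] at hy hz
      rcases hy with rfl | rfl <;> rcases hz with rfl | rfl <;> simp [e.symm, e', e'.symm])
    card_le_two
  exact ⟨g, hg, by simpa using k a (by simp), by simpa [e.symm] using k b (by simp)⟩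

theorem Tr.three (h : Tr H O 3) {a b c a' b' c' : Ω} (ha : a ∈ O) (hb : b ∈ O) (hc : c ∈ O)
    (ha' : a' ∈ O) (hb' : b' ∈ O) (hc' : c' ∈ O) (e1 : a ≠ b) (e2 : a ≠ c) (e3 : b ≠ c)
    (e1' : a' ≠ b') (e2' : a' ≠ c') (e3' : b' ≠ c') :
    ∃ g ∈ H, g • a = a' ∧ g • b = b' ∧ g • c = c' := by
  obtain ⟨g, hg, k⟩ := h {a, b, c} (fun y => if y = a then a' else if y = b then b' else c')
    (by simp [insert_subset_iff, *]) (fun s _ => by split_ifs <;> assumption) (by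
      rintro y hy z hz
      simp only [coe_insert, coe_singleton, Set.mem_insert_iff, Set.mem_singleton_iff] at hy hz
      rcases hy with rfl | rfl | rfl <;> rcases hz with rfl | rfl | rfl <;>
        simp [e1.symm, e2.symm, e3.symm, e1', e1'.symm, e2', e2'.symm, e3', e3'.symm])
    card_le_three
  exact ⟨g, hg, by simpa using k a (by simp), by simpa [e1.symm] using k b (by simp),
    by simpa [e2.symm, e3.symm] using k c (by simp)⟩

/-- A doubly transitive suborbit of deficiency one is not a clique. -/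
theorem clique (hA : AA n) (hP : Pro H K) {α : Ω} (hα : Fx K α) {Γ : Finset Ω} (h1 : α ∉ Γ)
    (hΓ : Orb (H ⊓ stabilizer G α) Γ) (hd : dl K Γ = 1) (hx : ∃ x ∈ Γ, ¬ Fx K x)
    (h2 : Tr (H ⊓ stabilizer G α) Γ 2) (hn : #Γ + 1 < n) {γ ε : Ω} (hγ : γ ∈ Γ) (hε : ε ∈ Γ)
    (ne : γ ≠ ε) {h : G} (hh : h ∈ H) (e1 : h • γ = α) (e2 : h • ε ∈ Γ) : False := by
  have k1 : ∀ β ∈ Γ, ∀ y ∈ insert α Γ, y ≠ β → ∃ g ∈ H, g • β = α ∧ g • y ∈ Γ := fun β hβ y hy e => by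
    rcases mem_insert.1 hy with rfl | hy
    · obtain ⟨s, hs, s1, s2⟩ := h2.two hγ hε hε hγ ne ne.symm
      obtain ⟨r, hr, er⟩ := hΓ.tr β hβ _ e2
      refine ⟨h * s * h⁻¹ * r, mul_mem (mul_mem (mul_mem hh hs.1) (inv_mem hh)) hr.1, ?_, ?_⟩
      · rw [mul_smul, er, mul_smul, inv_smul_smul, mul_smul, s2, e1]
      · rw [mul_smul, mem_stabilizer_iff.1 hr.2, ← e1, mul_smul, inv_smul_smul, mul_smul, s1]
        exact e2
    · obtain ⟨s, hs, s1, s2⟩ := h2.two hβ hy hγ hε e.symm ne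
      exact ⟨h * s, mul_mem hh hs.1, by rw [mul_smul, s1, e1], by rw [mul_smul, s2]; exact e2⟩
  have k2 : ∀ β ∈ insert α Γ, ∃ g ∈ H ⊓ stabilizer G (insert α Γ), g • β = α := fun β hβ => by
    rcases mem_insert.1 hβ with rfl | hβ
    · exact ⟨1, one_mem _, one_smul _ _⟩
    obtain ⟨g, hg, e, -⟩ := k1 β hβ α (mem_insert_self _ _) fun e => h1 (e ▸ hβ)
    refine ⟨g, ⟨hg, mem_stabilizer_finset'.2 fun y hy => ?_⟩, e⟩
    by_cases e' : y = β
    · rw [e', e]; exact mem_insert_self _ _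
    obtain ⟨g', hg', e3, e4⟩ := k1 β hβ y hy e'
    have := hΓ.inv (g * g'⁻¹) (mem_st.2 ⟨mul_mem hg (inv_mem hg'), by
      rw [mul_smul, inv_smul_eq_iff.2 e3.symm, e]⟩) _ e4
    rw [mul_smul, inv_smul_smul] at this
    exact mem_insert_of_mem this
  have := hA G Ω (H ⊓ stabilizer G (insert α Γ)) K (insert α Γ) (hP.mono (le_inf hP.1 fun k hk =>
    mem_stabilizer_finset'.2 fun y hy => by
      rcases mem_insert.1 hy with rfl | hy
      · rw [hα k hk]; exact mem_insert_self _ _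
      · exact mem_insert_of_mem (hΓ.inv k ⟨hP.1 hk, hα k hk⟩ y hy)) inf_le_left)
    ⟨fun g hg y hy => mem_stabilizer_finset'.1 hg.2 hy, fun x hx y hy => by
      obtain ⟨a, ha, ea⟩ := k2 x hx
      obtain ⟨b, hb, eb⟩ := k2 y hy
      exact ⟨b⁻¹ * a, mul_mem (inv_mem hb) ha, by rw [mul_smul, ea, inv_smul_eq_iff, eb]⟩⟩
    (by rwa [card_insert_of_notMem h1]) (hx.imp fun _ h => ⟨mem_insert_of_mem h.1, h.2⟩)
  rw [dl_insert h1 hα] at this
  omega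

theorem allone (hA : AA n) (hP : Pro H K) (hO : Orb H O) (hn : #O ≤ n) {α : Ω} (h1 : α ∈ O)
    (hα : Fx K α) (hG : Gd (H ⊓ stabilizer G α) K (O.erase α))
    (hno : ¬ Orb (H ⊓ stabilizer G α) (O.erase α))
    (h : ∀ y ∈ O.erase α, dl K (ob (H ⊓ stabilizer G α) (O.erase α) y) = 1 ∧
      Tr (H ⊓ stabilizer G α) (ob (H ⊓ stabilizer G α) (O.erase α) y) 2) : False := by
  obtain ⟨y, hy⟩ : (O.erase α).Nonempty := nonempty_iff_ne_empty.2 fun e => hno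
    (e ▸ ⟨by simp, by simp⟩)
  obtain ⟨β, hβ, γ, hγ, ε, hε, n1, n2, n3⟩ := two_lt_card.1 (three_le (fun k hk =>
    (orb_ob hG.inv y).inv k ((hP.stab hα).1 hk)) (h y hy).1 (hG.ob_mv hy))
  obtain ⟨g, hg, e⟩ := hO.tr β (mem_erase.1 (ob_sub hβ)).2 α h1
  have k : ∀ z ∈ ob (H ⊓ stabilizer G α) (O.erase α) y, β ≠ z → g • z ∈ O.erase α := fun z hz ne =>
    mem_erase.2 ⟨e ▸ fun e => ne (smul_left_cancel g e).symm,
      hO.inv g hg _ (mem_erase.1 (ob_sub hz)).2⟩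
  obtain ⟨r, hr, r1, r2⟩ := (h y hy).2.two hβ hγ hβ hε n1 n2
  obtain ⟨s, hs, s1, s2⟩ := (h y hy).2.two hγ hε hβ hγ n3 n1
  refine clique hA hP hα (fun e => (mem_erase.1 (ob_sub e)).1 rfl) (orb_ob hG.inv (g • γ))
    (h _ (k γ hγ n1)).1 (hG.ob_mv (k γ hγ n1)) (h _ (k γ hγ n1)).2 ?_ (self_mem_ob (k γ hγ n1))
    (ε := g • ε) (mem_ob.2 ⟨k ε hε n2, g * r * g⁻¹,
      mem_st.2 ⟨mul_mem (mul_mem hg hr.1) (inv_mem hg), ?_⟩, ?_⟩)
    (fun e => n3 (smul_left_cancel g e)) (mul_mem (mul_mem hg hs.1) (inv_mem hg)) ?_ ?_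
  · have : #(ob (H ⊓ stabilizer G α) (O.erase α) (g • γ)) < #(O.erase α) :=
      card_lt_card (Finset.ssubset_iff_subset_ne.2 ⟨ob_sub, fun e => hno (e ▸ orb_ob hG.inv _)⟩)
    have := card_erase_lt_of_mem h1
    omega
  · rw [← e, mul_smul, inv_smul_smul, mul_smul, r1]
  · rw [mul_smul, inv_smul_smul, mul_smul, r2]
  · rw [mul_smul, inv_smul_smul, mul_smul, s1, e]
  · rw [mul_smul, inv_smul_smul, mul_smul, s2]
    exact self_mem_ob (k γ hγ n1)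

/-- Deficiency one forces double transitivity. -/
theorem Orb.tr_two (hA : AA n) (hP : Pro H K) (hO : Orb H O) (hn : #O ≤ n) (hx : ∃ x ∈ O, ¬ Fx K x)
    (hd : dl K O = 1) : Tr H O 2 := by
  induction hm : #O using Nat.strong_induction_on generalizing O H with
  | _ m ih =>
    have h3 := three_le (fun k hk => hO.inv k (hP.1 hk)) hd hx
    obtain ⟨α, h1, hα⟩ := exists_fx (K := K) (card_pos.1 (by omega : 0 < #O)) (by omega)
    have hG := hO.gd hP h1 hα (not_le.1 fun e => by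
      have := hO.blk hA hP hn hx h1 hα e
      omega)
    have c := card_erase_lt_of_mem h1
    by_cases hno : Orb (H ⊓ stabilizer G α) (O.erase α)
    · obtain ⟨β, hβ⟩ := card_pos.1 (by rw [card_erase_of_mem h1]; omega : 0 < #(O.erase α))
      exact hO.tr_succ h1 (hno.tr_one hβ)
    refine (allone hA hP hO hn h1 hα hG hno fun y hy => ?_).elim
    have c' := card_le_card (ob_sub (H := H ⊓ stabilizer G α) (U := O.erase α) (x := y))
    have d1 := hA G Ω _ K _ (hP.stab hα) (orb_ob hG.inv y) (by omega) (hG.ob_mv hy)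
    have d2 := (hG.sdiff y).one_le hA (hP.stab hα) ((card_le_card sdiff_subset).trans_lt (by omega))
      (sdiff_nonempty.2 fun e => hno (subset_antisymm e ob_sub ▸ orb_ob hG.inv y))
    rw [dl_sdiff ob_sub, dl_erase h1 hα] at d2
    exact ⟨by omega, ih _ (by omega) (hP.stab hα) (orb_ob hG.inv y) (by omega) (hG.ob_mv hy)
      (by omega) rfl⟩

end Cfsg.Lib.Pron
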