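import Cfsg.Agent.Pron.A

/-!
# Averages over multiply transitive groups
-/

set_option autoImplicit false
set_option linter.unusedSectionVars false

namespace Cfsg.Lib.Pron

open Finset MulAction

variable {G : Type} [Group G] {Ω : Type} [MulAction G Ω] [DecidableEq Ω]

/-- Falling factorials. -/
def df : ℚ → ℕ → ℚ
  | _, 0 => 1
  | x, k + 1 => x * df (x - 1) k

/-- The indicator of `g y ∈ U`. -/
def J (U : Finset Ω) (g : G) (y : Ω) : ℚ := if g • y ∈ U then 1 else 0

/-- The indicator of `g = x` on `B`. -/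
def ind (B : Finset Ω) (x : Ω → Ω) (g : G) : ℚ := if ∀ s ∈ B, g • s = x s then 1 else 0

/-- `|U ∩ g U|`. -/
def zz (U : Finset Ω) (g : G) : ℚ := ∑ y ∈ U, J U g y

/-- The number of edges of `u` mapped into `U`. -/
def zv (U : Finset Ω) (u g : G) : ℚ := ∑ y ∈ U, J U g y * J U g (u • y)

/-- The order of a `k`-point stabiliser. -/
def cc (G Ω : Type) [Fintype G] [Fintype Ω] (k : ℕ) : ℚ :=
  Fintype.card G / df (Fintype.card Ω) k

theorem df_eq_1' : type_of% @df.eq_1 := @df.eq_1
theorem df_eq_2' : type_of% @df.eq_2 := @df.eq_2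
theorem df_eq_def' : type_of% @df.eq_def := @df.eq_def
theorem J_eq_1' : type_of% @J.eq_1 := @J.eq_1
theorem ind_eq_1' : type_of% @ind.eq_1 := @ind.eq_1
theorem zz_eq_1' : type_of% @zz.eq_1 := @zz.eq_1
theorem zv_eq_1' : type_of% @zv.eq_1 := @zv.eq_1
theorem cc_eq_1' : type_of% @cc.eq_1 := @cc.eq_1

theorem df_succ (x : ℚ) (k : ℕ) : df x (k + 1) = df x k * (x - k) := by
  induction k generalizing x with
  | zero => simp [df]
  | succ k ih => rw [df, ih, df]; push_cast; ring

variable {U B D : Finset Ω} {x : Ω → Ω} {t : ℕ}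

theorem J_mul_self (g : G) (y : Ω) : J U g y * J U g y = J U g y := by
  rw [J]; split_ifs <;> simp

theorem prod_J_insert (g : G) (y : Ω) (D : Finset Ω) :
    (∏ s ∈ D, J U g s) * J U g y = ∏ s ∈ insert y D, J U g s := by
  by_cases h : y ∈ D
  · rw [insert_eq_of_mem h, ← mul_prod_erase _ _ h, mul_right_comm, J_mul_self]
  · rw [prod_insert h, mul_comm]

theorem ind_J {y : Ω} (hy : y ∉ B) (g : G) :
    ind B x g * J U g y = ∑ a ∈ U \ B.image x, ind (insert y B) (Function.update x y a) g := by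
  have k : ∀ a, ind (insert y B) (Function.update x y a) g =
      ind B x g * if g • y = a then 1 else 0 := fun a => by
    have : (∀ s ∈ insert y B, g • s = Function.update x y a s) ↔ (∀ s ∈ B, g • s = x s) ∧ g • y = a := by
      rw [forall_mem_insert, Function.update_self, and_comm]
      exact and_congr_left fun _ => forall₂_congr fun s hs => by
        rw [Function.update_of_ne fun e : s = y => hy (e ▸ hs)]
    simp only [ind, this, ite_and]
    split_ifs <;> simp
  simp only [k, ← mul_sum, sum_ite_eq]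
  rw [ind, J]
  by_cases h : ∀ s ∈ B, g • s = x s
  · have : g • y ∉ B.image x := fun e => by
      obtain ⟨s, hs, e⟩ := mem_image.1 e
      exact hy (smul_left_cancel g ((h s hs).trans e) ▸ hs)
    simp [this]
  · rw [if_neg h, zero_mul, zero_mul]

theorem injOn_update {y a : Ω} (hy : y ∉ B) (hx : Set.InjOn x B) (ha : a ∉ B.image x) :
    Set.InjOn (Function.update x y a) (insert y B : Finset Ω) := by
  rw [coe_insert, Set.injOn_insert (by simpa using hy)]
  have e : Set.EqOn (Function.update x y a) x B := fun s hs =>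
    Function.update_of_ne (fun e : s = y => hy (e ▸ hs)) _ _
  refine ⟨e.injOn_iff.2 hx, ?_⟩
  rw [Function.update_self, e.image_eq]
  simpa using ha

theorem image_update {y a : Ω} (hy : y ∉ B) :
    U \ (insert y B).image (Function.update x y a) = (U \ B.image x).erase a := by
  rw [image_insert, Function.update_self, image_congr (g := x) fun s hs =>
    Function.update_of_ne (fun e : s = y => hy (e ▸ hs)) _ _, sdiff_insert]

variable [Fintype G] [Fintype Ω]

theorem sum_ind_id (h : Tr (⊤ : Subgroup G) (univ : Finset Ω) t) (hx : Set.InjOn x B) (hB : #B ≤ t) :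
    ∑ g : G, ind B x g = ∑ g : G, ind B id g := by
  obtain ⟨k, -, e⟩ := h B x (subset_univ _) (by simp) hx hB
  refine (Fintype.sum_equiv (Equiv.mulLeft k) _ _ fun g => ?_).symm
  have : (∀ s ∈ B, g • s = id s) ↔ ∀ s ∈ B, (k * g) • s = x s :=
    forall₂_congr fun s hs => by rw [← e s hs, mul_smul, smul_left_cancel_iff, id]
  rw [ind, ind]
  split_ifs with h1 h2 h2
  exacts [rfl, (h2 (this.1 h1)).elim, (h1 (this.2 h2)).elim, rfl]

theorem sum_ind_mul (h : Tr (⊤ : Subgroup G) (univ : Finset Ω) t) (hB : #B ≤ t) :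
    (∑ g : G, ind B id g) * df (Fintype.card Ω) #B = Fintype.card G := by
  induction B using Finset.induction_on with
  | empty => simp [ind, df]
  | insert y B hy ih =>
    rw [card_insert_of_notMem hy] at hB ⊢
    rw [← ih (by omega), df_succ]
    have : ∑ g : G, ind B id g = (Fintype.card Ω - #B) * ∑ g : G, ind (insert y B) id g := by
      have e : ∀ g : G, ind B id g = ind B id g * J univ g y := fun g => by simp [J]
      rw [sum_congr rfl fun g _ => (e g).trans (ind_J hy g), sum_comm, sum_congr rfl fun a ha =>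
        sum_ind_id h (injOn_update hy (Set.injOn_id _) (mem_sdiff.1 ha).2)
          (by rwa [card_insert_of_notMem hy]), sum_const, image_id, nsmul_eq_mul,
        cast_card_sdiff (subset_univ _), card_univ]
    rw [this]
    ring

theorem sum_ind (h : Tr (⊤ : Subgroup G) (univ : Finset Ω) t) (hx : Set.InjOn x B) (hB : #B ≤ t) :
    ∑ g : G, ind B x g = cc G Ω #B := by
  have e := sum_ind_mul (B := B) h hB
  rw [sum_ind_id h hx hB, cc, eq_div_iff (right_ne_zero_of_mul (e.trans_ne (by simp))), e]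

theorem gp (h : Tr (⊤ : Subgroup G) (univ : Finset Ω) t) (hx : Set.InjOn x B) (hd : Disjoint B D)
    (hB : #B + #D ≤ t) : ∑ g : G, ind B x g * ∏ y ∈ D, J U g y =
      cc G Ω (#B + #D) * df #(U \ B.image x) #D := by
  induction D using Finset.induction_on generalizing B x with
  | empty => simpa [df] using sum_ind h hx hB
  | insert y D hy ih =>
    rw [disjoint_insert_right] at hd
    rw [card_insert_of_notMem hy] at hB ⊢
    simp only [prod_insert hy, ← mul_assoc, ind_J hd.1, sum_mul]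
    rw [sum_comm, sum_congr rfl fun a ha => (ih (injOn_update hd.1 hx (mem_sdiff.1 ha).2)
      (disjoint_insert_left.2 ⟨hy, hd.2⟩) (by rw [card_insert_of_notMem hd.1]; omega)).trans
      (by rw [image_update hd.1, cast_card_erase_of_mem ha, card_insert_of_notMem hd.1]),
      sum_const, nsmul_eq_mul, df, add_right_comm, add_assoc]
    ring

/-- `p_k`. -/
def pp (G : Type) [Fintype G] (U : Finset Ω) (k : ℕ) : ℚ := cc G Ω k * df #U k

/-- First moment. -/
def a1 (G : Type) [Fintype G] (U : Finset Ω) (d : ℕ) : ℚ := d * pp G U d + (#U - d) * pp G U (d + 1)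

/-- Second moment. -/
def a2 (G : Type) [Fintype G] (U : Finset Ω) (d : ℕ) : ℚ := d * a1 G U d + (#U - d) * a1 G U (d + 1)

theorem pp_eq_1' : type_of% @pp.eq_1 := @pp.eq_1
theorem a1_eq_1' : type_of% @a1.eq_1 := @a1.eq_1
theorem a2_eq_1' : type_of% @a2.eq_1 := @a2.eq_1

theorem sum_prod (h : Tr (⊤ : Subgroup G) (univ : Finset Ω) t) (hD : #D ≤ t) :
    ∑ g : G, ∏ y ∈ D, J U g y = pp G U #D := by
  simpa [ind, pp] using gp (U := U) (B := ∅) (x := id) h (by simp) (disjoint_empty_left D)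
    (by simpa using hD)

theorem sum_ins (hD : D ⊆ U) (φ : ℕ → ℚ) :
    ∑ y ∈ U, φ #(insert y D) = #D * φ #D + (#U - #D) * φ (#D + 1) := by
  rw [← sum_sdiff hD, sum_congr rfl (g := fun _ => φ (#D + 1)) fun y hy => by
      rw [card_insert_of_notMem (mem_sdiff.1 hy).2],
    sum_congr (s₁ := D) rfl (g := fun _ => φ #D) fun y hy => by rw [insert_eq_of_mem hy],
    sum_const, sum_const, nsmul_eq_mul, nsmul_eq_mul, cast_card_sdiff hD, add_comm]

theorem sum_ers (hD : D ⊆ U) (φ : ℕ → ℚ) :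
    ∑ y ∈ U, φ #(D.erase y) = #D * φ (#D - 1) + (#U - #D) * φ #D := by
  rw [← sum_sdiff hD, sum_congr rfl (g := fun _ => φ #D) fun y hy => by
      rw [erase_eq_of_notMem (mem_sdiff.1 hy).2],
    sum_congr (s₁ := D) rfl (g := fun _ => φ (#D - 1)) fun y hy => by rw [card_erase_of_mem hy],
    sum_const, sum_const, nsmul_eq_mul, nsmul_eq_mul, cast_card_sdiff hD, add_comm]

theorem sum_z1 (h : Tr (⊤ : Subgroup G) (univ : Finset Ω) t) (hD : D ⊆ U) (hc : #D + 1 ≤ t) :
    ∑ g : G, (∏ y ∈ D, J U g y) * zz U g = a1 G U #D := by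
  simp only [zz, mul_sum, prod_J_insert]
  rw [sum_comm, sum_congr rfl fun y _ => sum_prod h ((card_insert_le _ _).trans hc), sum_ins hD, a1]

theorem sum_z2 (h : Tr (⊤ : Subgroup G) (univ : Finset Ω) t) (hD : D ⊆ U) (hc : #D + 2 ≤ t) :
    ∑ g : G, (∏ y ∈ D, J U g y) * zz U g * zz U g = a2 G U #D := by
  have : ∀ g : G, (∏ y ∈ D, J U g y) * zz U g * zz U g =
      ∑ y ∈ U, (∏ s ∈ insert y D, J U g s) * zz U g := fun g => by
    rw [← sum_mul]
    congr 1
    simp only [zz, mul_sum, prod_J_insert]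
  simp only [this]
  rw [sum_comm, sum_congr rfl fun y hy => sum_z1 h (insert_subset hy hD)
    (by have := card_insert_le y D; omega), sum_ins hD, a2]

theorem zz_inv (g : G) : zz U g⁻¹ = zz U g := by
  have k : ∀ g : G, zz U g = ∑ y ∈ U, ∑ a ∈ U, if g • y = a then (1 : ℚ) else 0 := fun g => by
    simp [zz, J]
  rw [k, k, sum_comm]
  exact sum_congr rfl fun _ _ => sum_congr rfl fun _ _ => if_congr (inv_smul_eq_iff.trans eq_comm) rfl rfl

theorem sum_inv (φ : G → ℚ) : ∑ g, φ g⁻¹ = ∑ g, φ g := Fintype.sum_equiv (Equiv.inv G) _ _ fun _ => rfl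

theorem m_z (h : Tr (⊤ : Subgroup G) (univ : Finset Ω) t) (ht : 1 ≤ t) :
    ∑ g : G, zz U g = a1 G U 0 := by
  simpa using sum_z1 (U := U) h (empty_subset _) (by simpa using ht)

theorem m_z2 (h : Tr (⊤ : Subgroup G) (univ : Finset Ω) t) (ht : 2 ≤ t) :
    ∑ g : G, zz U g * zz U g = a2 G U 0 := by
  simpa using sum_z2 (U := U) h (empty_subset _) (by simpa using ht)

theorem m_z3 (h : Tr (⊤ : Subgroup G) (univ : Finset Ω) t) (ht : 3 ≤ t) :
    ∑ g : G, zz U g * zz U g * zz U g = #U * a2 G U 1 := by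
  have : ∀ g : G, zz U g * zz U g * zz U g =
      ∑ y ∈ U, (∏ s ∈ {y}, J U g s) * zz U g * zz U g := fun g => by
    simp only [prod_singleton, ← sum_mul, zz]
  simp only [this]
  rw [sum_comm, sum_congr rfl fun y hy => sum_z2 h (singleton_subset_iff.2 hy) (by simpa using ht)]
  simp

variable {u : G}

theorem zv_eq (hu : ∀ y ∈ U, u • y ≠ y) (g : G) : zv U u g = ∑ y ∈ U, ∏ s ∈ {y, u • y}, J U g s :=
  sum_congr rfl fun y hy => by rw [prod_pair (hu y hy).symm]

theorem m_v (h : Tr (⊤ : Subgroup G) (univ : Finset Ω) t) (ht : 2 ≤ t) (hu : ∀ y ∈ U, u • y ≠ y) :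
    ∑ g : G, zv U u g = #U * pp G U 2 := by
  simp only [zv_eq hu]
  rw [sum_comm, sum_congr rfl fun y hy => (sum_prod h (card_le_two.trans ht)).trans
    (by rw [card_pair (hu y hy).symm])]
  simp

theorem m_vz (h : Tr (⊤ : Subgroup G) (univ : Finset Ω) t) (ht : 3 ≤ t) (hu : ∀ y ∈ U, u • y ≠ y)
    (hU : ∀ y ∈ U, u • y ∈ U) : ∑ g : G, zv U u g * zz U g = #U * a1 G U 2 := by
  simp only [zv_eq hu, sum_mul]
  rw [sum_comm, sum_congr rfl fun y hy => (sum_z1 h (by simp [insert_subset_iff, hy, hU y hy])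
    (by rwa [card_pair (hu y hy).symm])).trans (by rw [card_pair (hu y hy).symm])]
  simp

theorem m_vzz (h : Tr (⊤ : Subgroup G) (univ : Finset Ω) t) (ht : 4 ≤ t) (hu : ∀ y ∈ U, u • y ≠ y)
    (hU : ∀ y ∈ U, u • y ∈ U) : ∑ g : G, zv U u g * zz U g * zz U g = #U * a2 G U 2 := by
  simp only [zv_eq hu, sum_mul]
  rw [sum_comm, sum_congr rfl fun y hy => (sum_z2 h (by simp [insert_subset_iff, hy, hU y hy])
    (by rwa [card_pair (hu y hy).symm])).trans (by rw [card_pair (hu y hy).symm])]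
  simp

theorem m_vv (h : Tr (⊤ : Subgroup G) (univ : Finset Ω) t) (ht : 4 ≤ t) (hu : ∀ y ∈ U, u • y ≠ y)
    (hU : ∀ y, u • y ∈ U ↔ y ∈ U) (h2 : ∀ y ∈ U, u • u • y ≠ y) :
    ∑ g : G, zv U u g * zv U u g = #U * (pp G U 2 + 2 * pp G U 3 + (#U - 3) * pp G U 4) := by
  have k : ∀ y ∈ U, ∑ g : G, (∏ s ∈ {y, u • y}, J U g s) * zv U u g =
      pp G U 2 + 2 * pp G U 3 + (#U - 3) * pp G U 4 := fun y hy => by
    simp only [zv, mul_sum, ← mul_assoc, prod_J_insert]
    have n1 := hu y hy
    have n2 := h2 y hy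
    have n3 := hu _ ((hU y).2 hy)
    have n4 : y ≠ u⁻¹ • y := fun e => n1 (eq_inv_smul_iff.1 e)
    have n5 : u • y ≠ u⁻¹ • y := fun e => n2 (eq_inv_smul_iff.1 e)
    have hs : {y, u • y, u⁻¹ • y} ⊆ U := by
      simp [insert_subset_iff, hy, (hU y).2 hy, (hU (u⁻¹ • y)).1 (by simpa using hy)]
    have c3 : #{y, u • y, u⁻¹ • y} = 3 := card_eq_three.2 ⟨_, _, _, n1.symm, n4, n5, rfl⟩
    rw [sum_comm, sum_congr rfl fun s _ => sum_prod h (card_le_four.trans ht), ← sum_sdiff hs,
      sum_congr rfl (g := fun _ => pp G U 4) fun s hs => by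
        simp only [mem_sdiff, mem_insert, mem_singleton, not_or] at hs
        rw [card_insert_of_notMem (by
          simp only [mem_insert, mem_singleton, not_or]
          exact ⟨hu s hs.1, fun e => hs.2.2.2 (eq_inv_smul_iff.2 e),
            fun e => hs.2.1 (smul_left_cancel u e)⟩), card_insert_of_notMem (by simp [hs.2.1, hs.2.2.1]),
          card_pair n1.symm],
      sum_const, nsmul_eq_mul, cast_card_sdiff hs, c3, sum_insert (by simp [n1.symm, n4]),
      sum_pair n5, smul_inv_smul]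
    have e1 : #(insert (u • y) (insert y {y, u • y})) = 2 := by
      rw [insert_eq_of_mem (by simp), insert_eq_of_mem (by simp), card_pair n1.symm]
    have e2 : #(insert (u • u • y) (insert (u • y) {y, u • y})) = 3 := by
      rw [insert_eq_of_mem (s := {y, u • y}) (by simp), card_insert_of_notMem (by simp [n2, n3]),
        card_pair n1.symm]
    have e3 : #(insert y (insert (u⁻¹ • y) {y, u • y})) = 3 := by
      rw [insert_eq_of_mem (by simp), card_insert_of_notMem (by simp [n4.symm, n5.symm]),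
        card_pair n1.symm]
    rw [e1, e2, e3]
    push_cast
    ring
  conv_lhs => enter [2, g]; rw [zv_eq hu g, sum_mul, ← zv_eq hu g]
  rw [sum_comm, sum_congr rfl k, sum_const, nsmul_eq_mul]

/-- The map `s ↦ a`, `t ↦ b`. -/
def tw (s a b : Ω) (y : Ω) : Ω := if y = s then a else b

theorem tw_eq_1' : type_of% @tw.eq_1 := @tw.eq_1

theorem ind_tw {s r : Ω} (e : s ≠ r) (a b : Ω) (g : G) :
    ind {s, r} (tw s a b) g = if g • s = a ∧ g • r = b then 1 else 0 := by
  simp [ind, tw, e.symm]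

theorem injOn_tw {s r a b : Ω} (e : a ≠ b) : Set.InjOn (tw s a b) ({s, r} : Finset Ω) := by
  rintro y hy z hz
  simp only [coe_insert, coe_singleton, Set.mem_insert_iff, Set.mem_singleton_iff] at hy hz
  by_cases h1 : y = s <;> by_cases h2 : z = s <;> simp_all [tw, e.symm]

theorem gp_tw (h : Tr (⊤ : Subgroup G) (univ : Finset Ω) t) {s r a b : Ω} (e : s ≠ r) (e' : a ≠ b)
    (ha : a ∈ U) (hb : b ∈ U) (hD : 2 + #((D.erase s).erase r) ≤ t) :
    ∑ g : G, ind {s, r} (tw s a b) g * ∏ y ∈ D, J U g y =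
      cc G Ω (2 + #((D.erase s).erase r)) * df (#U - 2) #((D.erase s).erase r) := by
  have k := gp (U := U) h (injOn_tw (s := s) (r := r) e') (D := (D.erase s).erase r)
    (by simp [disjoint_left]) (by rwa [card_pair e])
  have i : image (tw s a b) {s, r} = {a, b} := by simp [tw, e.symm]
  rw [card_pair e, i, cast_card_sdiff (by simp [insert_subset_iff, ha, hb]), card_pair e'] at k
  refine (sum_congr rfl fun g _ => ?_).trans k
  rw [ind_tw e]
  split_ifs with h1
  · rw [prod_erase _ (by simp [J, h1.2, hb]), prod_erase _ (by simp [J, h1.1, ha])]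
  · simp

theorem m_uv (h : Tr (⊤ : Subgroup G) (univ : Finset Ω) t) (ht : 4 ≤ t) (hu : ∀ y ∈ U, u • y ≠ y)
    (hU : ∀ y ∈ U, u • y ∈ U) : ∑ g : G, zv U u g⁻¹ * zv U u g = #U * (#U * (2 * cc G Ω 2 +
      4 * (#U - 2) ^ 2 * cc G Ω 3 + ((#U - 2) * (#U - 3)) ^ 2 * cc G Ω 4)) := by
  have k1 : ∀ x ∈ U, ∀ g : G, J U g⁻¹ x * J U g⁻¹ (u • x) =
      ∑ s ∈ U, ∑ r ∈ U.erase s, ind {s, r} (tw s x (u • x)) g := fun x hx g => by
    rw [sum_congr rfl fun s _ => sum_congr rfl fun r hr => ind_tw (mem_erase.1 hr).1.symm _ _ g]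
    simp only [← eq_inv_smul_iff, ite_and, sum_ite_irrel, sum_ite_eq', sum_const_zero, J]
    simp only [mem_erase, ne_eq, smul_left_cancel_iff, hu x hx, not_false_eq_true, true_and]
    split_ifs <;> simp
  have k2 : ∀ x ∈ U, ∀ y ∈ U, ∑ g : G, J U g⁻¹ x * J U g⁻¹ (u • x) * ∏ s ∈ {y, u • y}, J U g s =
      2 * cc G Ω 2 + 4 * (#U - 2) ^ 2 * cc G Ω 3 + ((#U - 2) * (#U - 3)) ^ 2 * cc G Ω 4 :=
    fun x hx y hy => by
      have hs : {y, u • y} ⊆ U := by simp [insert_subset_iff, hy, hU y hy]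
      simp only [k1 x hx, sum_mul]
      rw [sum_comm, sum_congr rfl fun s hs' => sum_comm.trans ((sum_congr rfl fun r hr =>
        gp_tw h (mem_erase.1 hr).1.symm (hu x hx).symm hx (hU x hx) (by
          have := (card_erase_le.trans card_erase_le :
            #((({y, u • y} : Finset Ω).erase s).erase r) ≤ _).trans card_le_two
          omega)).trans ((sum_ers (erase_subset_erase s hs)
            fun j => cc G Ω (2 + j) * df (#U - 2) j).trans (by rw [cast_card_erase_of_mem hs']))),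
        sum_ers hs fun j => j * (cc G Ω (2 + (j - 1)) * df (#U - 2) (j - 1)) +
          (#U - 1 - j) * (cc G Ω (2 + j) * df (#U - 2) j), card_pair (hu y hy).symm]
      simp [df]
      ring
  conv_lhs => enter [2, g]; rw [zv_eq hu g, zv, sum_mul_sum]
  rw [sum_comm, sum_congr rfl fun x hx => sum_comm.trans (sum_congr rfl (k2 x hx))]
  simp only [sum_const, nsmul_eq_mul]

theorem m_cond (h : Tr (⊤ : Subgroup G) (univ : Finset Ω) t) (ht : 3 ≤ t) {s r a b : Ω} (hs : s ∉ U)
    (hr : r ∈ U) (e' : a ≠ b) (ha : a ∈ U) (hb : b ∈ U) :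
    ∑ g : G, ind {s, r} (tw s a b) g * zz U g = cc G Ω 2 + (#U - 1) * (cc G Ω 3 * (#U - 2)) := by
  have e : s ≠ r := fun e => hs (e ▸ hr)
  simp only [zz, mul_sum]
  rw [sum_comm, sum_congr rfl fun y hy => (sum_congr rfl fun g _ => by
    rw [← prod_singleton (J U g) y]).trans (gp_tw h e e' ha hb (by
      have := (card_erase_le.trans card_erase_le : #((({y} : Finset Ω).erase s).erase r) ≤ _)
      rw [card_singleton] at this
      omega)), ← add_sum_erase _ _ hr, sum_congr rfl (g := fun _ => cc G Ω 3 * (#U - 2)) fun y hy => by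
        rw [erase_eq_of_notMem (s := {y}) (by
          simpa using fun e : s = y => hs (e ▸ (mem_erase.1 hy).2)),
          erase_eq_of_notMem (by simpa using (mem_erase.1 hy).1.symm)]
        simp [df], sum_const, nsmul_eq_mul, cast_card_erase_of_mem hr,
    erase_eq_of_notMem (s := {r}) (by simpa using e)]
  simp [df]

theorem cc_succ {k : ℕ} (hk : k < Fintype.card Ω) : cc G Ω k = (Fintype.card Ω - k) * cc G Ω (k + 1) := by
  have : (Fintype.card Ω - k : ℚ) ≠ 0 := sub_ne_zero.2 (Nat.cast_injective.ne hk.ne')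
  rw [cc, cc, df_succ, div_mul_eq_div_div, mul_div_cancel₀ _ this]

theorem cc_zero : cc G Ω 0 = Fintype.card G := by simp [cc, df]

theorem cc_pos {k : ℕ} (hk : k ≤ Fintype.card Ω) : 0 < cc G Ω k := by
  induction k with
  | zero => simp [cc_zero, Fintype.card_pos]
  | succ k ih =>
    have := ih (by omega)
    rw [cc_succ hk] at this
    exact pos_of_mul_pos_right this (sub_nonneg.2 (Nat.cast_le.2 (by omega)))

end Cfsg.Lib.Pron
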