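import Cfsg.Agent.Pron.B

/-!
# Supports of commutators and of products of two involutions
-/

set_option autoImplicit false
set_option linter.unusedSectionVars false

namespace Cfsg.Lib.Pron

open Finset MulAction
open scoped Pointwise

variable {G : Type} [Group G] {Ω : Type} [MulAction G Ω] [DecidableEq Ω] [Fintype Ω] [Fintype G]

/-- The support. -/
def sp (Ω : Type) [MulAction G Ω] [DecidableEq Ω] [Fintype Ω] (u : G) : Finset Ω :=
  univ.filter fun x => u • x ≠ x

/-- The number of edges of `u` entering `g⁻¹ U`. -/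
def tt (U : Finset Ω) (u g : G) : ℚ := ∑ y ∈ U, (1 - J U g y) * J U g (u • y)

theorem sp_eq_1' : type_of% @sp.eq_1 := @sp.eq_1
theorem tt_eq_1' : type_of% @tt.eq_1 := @tt.eq_1

variable {u v g : G} {U : Finset Ω} {m : ℕ}

theorem mem_sp {x : Ω} : x ∈ sp Ω u ↔ u • x ≠ x := by simp [sp]

theorem smul_mem_sp {x : Ω} : u • x ∈ sp Ω u ↔ x ∈ sp Ω u := by simp [mem_sp]

theorem mem_sp_conj {x : Ω} : x ∈ sp Ω (g * u * g⁻¹) ↔ g⁻¹ • x ∈ sp Ω u := by
  rw [mem_sp, mem_sp, mul_smul, mul_smul, ne_eq, ← eq_inv_smul_iff]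

theorem sp_conj : sp Ω (g * u * g⁻¹) = g • sp Ω u := by
  ext x
  rw [mem_sp_conj, inv_smul_mem_iff]

theorem sum_smul_U (hU : ∀ y, u • y ∈ U ↔ y ∈ U) (φ : Ω → ℚ) : ∑ y ∈ U, φ (u • y) = ∑ y ∈ U, φ y :=
  sum_equiv (MulAction.toPerm u) (fun y => (hU y).symm) fun _ _ => rfl

theorem tt_eq (hU : ∀ y, u • y ∈ U ↔ y ∈ U) (g : G) : tt U u g = zz U g - zv U u g := by
  simp only [tt, sub_mul, one_mul, sum_sub_distrib, sum_smul_U hU, zz, zv]

theorem J_01 (g : G) (y : Ω) : J U g y = 0 ∨ J U g y = 1 := by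
  rw [J]; split_ifs <;> simp

theorem tt_nat (U : Finset Ω) (u g : G) : ∃ a : ℕ, tt U u g = a :=
  ⟨∑ y ∈ U, if g • y ∉ U ∧ g • u • y ∈ U then 1 else 0, by
    push_cast
    exact sum_congr rfl fun y _ => by simp only [J]; split_ifs <;> simp_all⟩

theorem zz_eq (U : Finset Ω) (g : G) : zz U g = #(U.filter fun y => g • y ∈ U) := by simp [zz, J]

theorem tt_le (U : Finset Ω) (u g : G) : tt U u g ≤ #U - zz U g := by
  rw [zz, card_eq_sum_ones, Nat.cast_sum, ← sum_sub_distrib]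
  refine sum_le_sum fun y _ => ?_
  rcases J_01 (U := U) g y with e | e <;> rcases J_01 (U := U) g (u • y) with e' | e' <;> simp [e, e']

theorem tt_comm (e : u * (g * v * g⁻¹) = g * v * g⁻¹ * u) : tt (sp Ω u) v g = 0 :=
  sum_eq_zero fun y _ => by
    simp only [J, mem_sp]
    split_ifs with h1 h2 h2 <;> try simp
    have := congrArg (· • g • y) e
    simp only [mul_smul, inv_smul_smul, not_not.1 h1] at this
    exact h2 this

theorem comm_inv (e : u * (g * v * g⁻¹) = g * v * g⁻¹ * u) :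
    v * (g⁻¹ * u * g⁻¹⁻¹) = g⁻¹ * u * g⁻¹⁻¹ * v := by
  calc _ = g⁻¹ * (g * v * g⁻¹ * u) * g := by group
    _ = _ := by rw [← e]; group

theorem sum_ite_U (U : Finset Ω) (φ : Ω → ℚ) : ∑ x, (if x ∈ U then φ x else 0) = ∑ x ∈ U, φ x := by
  rw [← sum_filter, filter_mem_eq_inter, univ_inter]

/-- The support of a commutator. -/
theorem comm_bound {u' : G} (h : sp Ω u' = sp Ω u) (g : G) :
    (#(sp Ω ((g * u' * g⁻¹ * u)⁻¹ * (u * (g * u' * g⁻¹)))) : ℚ) ≤
    zz (sp Ω u) g + tt (sp Ω u) u' g + tt (sp Ω u) u g⁻¹ := by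
  have e : tt (sp Ω u) u' g = ∑ x, if g⁻¹ • x ∈ sp Ω u then
      (1 - J (sp Ω u) (1 : G) x) * J (sp Ω u) (1 : G) ((g * u' * g⁻¹) • x) else 0 := by
    rw [tt, ← sum_ite_U]
    exact Fintype.sum_equiv (MulAction.toPerm g) _ _ fun y => by simp [J, mul_smul]
  rw [← zz_inv, e, tt, zz, ← sum_ite_U (sp Ω u), ← sum_ite_U (sp Ω u), ← sum_add_distrib,
    ← sum_add_distrib, sp, card_filter, Nat.cast_sum]
  refine sum_le_sum fun x _ => ?_
  have k : ∀ x, g⁻¹ • x ∈ sp Ω u ↔ x ∈ sp Ω (g * u' * g⁻¹) := fun x => by rw [mem_sp_conj, h]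
  simp only [J, one_smul, k]
  generalize g * u' * g⁻¹ = v
  have e : (v * u)⁻¹ • (u * v) • x = x ↔ u • v • x = v • u • x := by
    rw [inv_smul_eq_iff, mul_smul, mul_smul]
  simp only [mem_sp, mul_smul (v * u)⁻¹, ne_eq, e]
  by_cases h0 : u • v • x = v • u • x
  · rw [if_neg (not_not.2 h0)]
    split_ifs <;> norm_num
  rw [if_pos h0]
  by_cases h1 : u • x = x <;> by_cases h2 : v • x = x
  · exact (h0 (by rw [h2, h1, h2])).elim
  · have : u • v • x ≠ v • x := fun e => h0 (by rw [e, h1])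
    simp [h1, h2, this]
  · have : v • u • x ≠ u • x := fun e => h0 (by rw [e, h2])
    simp [h1, h2, this]
  · simp [h1, h2]

theorem q_nonneg (hmin : ∀ w : G, w ≠ 1 → m ≤ #(sp Ω w)) (h : sp Ω v = sp Ω u)
    (e : u * (g * v * g⁻¹) ≠ g * v * g⁻¹ * u) :
    (m : ℚ) ≤ zz (sp Ω u) g + tt (sp Ω u) v g + tt (sp Ω u) u g⁻¹ :=
  (Nat.cast_le.2 (hmin _ fun h => e (inv_mul_eq_one.1 h).symm)).trans (comm_bound h g)

/-! ### Two involutions -/

section Dih

variable (hu : ∀ x : Ω, u • u • x = x) (hv : ∀ x : Ω, v • v • x = x)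
include hu hv

theorem dih_a {y : Ω} (h1 : u • y ≠ y) (h2 : v • y = y) (h3 : u • v • u • v • y ≠ y) :
    u • v • y ∈ sp Ω u ∩ sp Ω v := by
  rw [h2] at h3 ⊢
  refine mem_inter.2 ⟨smul_mem_sp.2 (mem_sp.2 h1), mem_sp.2 fun e => h3 ?_⟩
  rw [e, hu]

theorem dih_b {y : Ω} (h1 : u • y ≠ y) (h2 : v • y = y) (h3 : u • v • u • v • y ≠ y)
    (h4 : u • v • u • v • u • v • y ≠ y) : v • u • y ∈ sp Ω u ∩ sp Ω v := by
  have := (mem_inter.1 (dih_a hu hv h1 h2 h3)).2
  rw [h2] at h4 this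
  refine mem_inter.2 ⟨mem_sp.2 fun e => h4 ?_, smul_mem_sp.2 this⟩
  rw [e, hv, hu]

theorem dih_flip2 {y : Ω} : v • u • v • u • y = y ↔ u • v • u • v • y = y :=
  ⟨fun e => by rw [← e, hv, hu, hv, hu, e], fun e => by rw [← e, hu, hv, hu, hv, e]⟩

theorem dih_flip3 {y : Ω} : v • u • v • u • v • u • y = y ↔ u • v • u • v • u • v • y = y :=
  ⟨fun e => by rw [← e, hv, hu, hv, hu, hv, hu, e], fun e => by rw [← e, hu, hv, hu, hv, hu, hv, e]⟩

theorem dih (hmin : ∀ w : G, w ≠ 1 → m ≤ #(sp Ω w)) (hU : #(sp Ω u) = m) (hV : #(sp Ω v) = m)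
    (n2 : (u * v) ^ 2 ≠ 1) : m ≤ 2 * #(sp Ω u ∩ sp Ω v) := by
  have c0 := card_union_add_card_inter (sp Ω u) (sp Ω v)
  have fb : ∀ k, (u * v) ^ k ≠ 1 → ∀ S ⊆ sp Ω u ∪ sp Ω v, (∀ x ∈ S, (u * v) ^ k • x = x) →
      #S + m ≤ #(sp Ω u ∪ sp Ω v) := fun k hk S hS h => by
    have := (hmin _ hk).trans (card_le_card (show _ ⊆ (sp Ω u ∪ sp Ω v) \ S from fun x hx => by
      refine mem_sdiff.2 ⟨by_contra fun e => mem_sp.1 hx ?_, fun e => mem_sp.1 hx (h x e)⟩
      simp only [mem_union, mem_sp, not_or, not_not] at e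
      exact mem_stabilizer_iff.1 (pow_mem (mul_mem e.1 e.2) k)))
    have := card_sdiff_add_card_eq_card hS
    omega
  have p2 : ∀ x : Ω, (u * v) ^ 2 • x = u • v • u • v • x := fun x => by simp [pow_succ, mul_smul]
  have p3 : ∀ x : Ω, (u * v) ^ 3 • x = u • v • u • v • u • v • x := fun x => by
    simp [pow_succ, mul_smul]
  set Z := sp Ω u ∩ sp Ω v
  have iZ : ∀ {x}, x ∈ sp Ω v ∩ sp Ω u → x ∈ Z := fun h => mem_inter.2 (mem_inter.1 h).symm
  set E := (sp Ω u ∪ sp Ω v) \ Z with hE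
  have cE : #E + #Z = #(sp Ω u ∪ sp Ω v) := card_sdiff_add_card_eq_card inter_subset_union
  have mE : ∀ x ∈ E, (u • x ≠ x ∧ v • x = x) ∨ (v • x ≠ x ∧ u • x = x) := fun x hx => by
    simp only [hE, Z, mem_sdiff, mem_union, mem_inter, mem_sp] at hx
    tauto
  have n1 : ∀ x ∈ E, u • v • x ≠ x := fun x hx e => by
    rcases mE x hx with h | h
    · exact h.1 (by rwa [h.2] at e)
    · exact h.1 (by rw [← hu (v • x), e, h.2])
  set A2 := E.filter fun x => u • v • u • v • x = x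
  set A3 := E.filter fun x => u • v • u • v • u • v • x = x
  set A := E.filter fun x => u • v • u • v • x ≠ x ∧ u • v • u • v • u • v • x ≠ x
  set Z3 := Z.filter fun x => u • v • u • v • u • v • x = x
  have cA : #E ≤ #A2 + #A3 + #A := (card_le_card (fun x hx => by
    simp only [A2, A3, A, mem_union, mem_filter]
    tauto : E ⊆ A2 ∪ A3 ∪ A)).trans ((card_union_le _ _).trans (by gcongr; exact card_union_le _ _))
  have d23 : Disjoint A2 A3 := disjoint_left.2 fun x h2 h3 => n1 x (mem_filter.1 h2).1 (by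
    simpa only [(mem_filter.1 h2).2] using (mem_filter.1 h3).2)
  have c2 := fb 2 n2 A2 (filter_subset _ _ |>.trans sdiff_subset) fun x hx =>
    (p2 x).trans (mem_filter.1 hx).2
  -- the partner map
  have pt : ∀ B ⊆ E, ∀ C : Finset Ω, (∀ x ∈ B, u • v • u • v • x ≠ x) →
      (∀ x ∈ B, u • v • x ∈ Z → u • v • x ∈ C) → (∀ x ∈ B, v • u • x ∈ Z → v • u • x ∈ C) →
      #B ≤ 2 * #C := fun B hB C h1 h2 h3 => by
    rw [← card_filter_add_card_filter_not (s := B) fun x => v • x = x, two_mul]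
    refine add_le_add (card_le_card_of_injOn (fun x => u • v • x) (fun x hx => ?_) fun _ _ _ _ e =>
      smul_left_cancel v (smul_left_cancel u e)) (card_le_card_of_injOn (fun x => v • u • x)
        (fun x hx => ?_) fun _ _ _ _ e => smul_left_cancel u (smul_left_cancel v e))
    · obtain ⟨hx, e⟩ := mem_filter.1 hx
      exact h2 x hx (dih_a hu hv ((mE x (hB hx)).resolve_right fun h => h.1 e).1 e (h1 x hx))
    · obtain ⟨hx, e⟩ := mem_filter.1 hx
      exact h3 x hx (iZ (dih_a hv hu e ((mE x (hB hx)).resolve_left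
        fun h => e h.2).2 (mt (dih_flip2 hu hv).1 (h1 x hx))))
  by_cases n3 : (u * v) ^ 3 = 1
  · have := pt E Subset.rfl Z (fun x hx e => n1 x hx (by
      have := p3 x
      rwa [n3, one_smul, e, eq_comm] at this)) (fun _ _ h => h) fun _ _ h => h
    omega
  have mA : ∀ x ∈ A, u • v • x ∈ Z \ Z3 ∧ v • u • x ∈ Z \ Z3 := fun x hx => by
    obtain ⟨hx, h2, h3⟩ := mem_filter.1 hx
    have k : u • v • x ∈ Z ∧ v • u • x ∈ Z := by
      rcases mE x hx with h | h
      · exact ⟨dih_a hu hv h.1 h.2 h2, dih_b hu hv h.1 h.2 h2 h3⟩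
      · exact ⟨iZ (dih_b hv hu h.1 h.2 (mt (dih_flip2 hu hv).1 h2) (mt (dih_flip3 hu hv).1 h3)),
          iZ (dih_a hv hu h.1 h.2 (mt (dih_flip2 hu hv).1 h2))⟩
    refine ⟨mem_sdiff.2 ⟨k.1, fun e => h3 ?_⟩, mem_sdiff.2 ⟨k.2, fun e => h3 ?_⟩⟩
    · exact smul_left_cancel v (smul_left_cancel u (mem_filter.1 e).2)
    · have := (mem_filter.1 e).2
      rw [hv, hu] at this
      rw [this, hv, hu]
  have cZ : #(Z \ Z3) + #Z3 = #Z := card_sdiff_add_card_eq_card (filter_subset _ _)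
  by_cases n6 : (u * v) ^ 6 = 1
  · have p6 : ∀ x : Ω, u • v • u • v • u • v • u • v • u • v • u • v • x = x := fun x => by
      simpa [pow_succ, mul_smul] using congrArg (· • x) n6
    have c3 := fb 3 n3 (A3 ∪ Z3) (union_subset (filter_subset _ _ |>.trans sdiff_subset)
      (filter_subset _ _ |>.trans inter_subset_union)) fun x hx => (p3 x).trans (by
        rcases mem_union.1 hx with h | h <;> exact (mem_filter.1 h).2)
    rw [card_union_of_disjoint (s := A3) (t := Z3) (disjoint_filter_filter sdiff_disjoint)] at c3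
    have c4 := pt A3 (filter_subset _ _) Z3 (fun x hx e => disjoint_left.1 d23 (mem_filter.2
      ⟨(mem_filter.1 hx).1, e⟩) hx) (fun x hx h => mem_filter.2 ⟨h, by rw [(mem_filter.1 hx).2]⟩)
      fun x hx h => mem_filter.2 ⟨h, by
        conv_rhs => rw [← (mem_filter.1 hx).2]
        rw [hv, hu, hu, hv]⟩
    have c5 : #((u * v) • A ∪ (v * u) • A) ≤ #(Z \ Z3) := card_le_card (union_subset
      (smul_finset_subset_iff.2 fun x hx => by
        rw [← inv_smul_mem_iff, inv_inv, mul_smul]; exact (mA x hx).1)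
      (smul_finset_subset_iff.2 fun x hx => by
        rw [← inv_smul_mem_iff, inv_inv, mul_smul]; exact (mA x hx).2))
    rw [card_union_of_disjoint (disjoint_left.2 fun z h1 h2 => by
      obtain ⟨x, hx, rfl⟩ := mem_smul_finset.1 h1
      obtain ⟨y, hy, e⟩ := mem_smul_finset.1 h2
      obtain ⟨hx, x2, x3⟩ := mem_filter.1 hx
      have e' : y = u • v • u • v • x := by rw [← mul_smul u v x, ← e, mul_smul, hv, hu]
      have q := p6 x
      rcases mE x hx with h | h <;> rcases mE y (mem_filter.1 hy).1 with h' | h' <;>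
        rw [e'] at h'
      · have q4 : u • v • u • v • u • v • u • v • x = x := by rw [h'.2, hu, hv, hu, h.2]
        exact x2 (by rwa [q4] at q)
      · exact x3 (by rw [← h'.2, hu, hv, hu, h.2])
      · rw [h'.2, hu, hv, hu, hv, h.2] at q
        exact n1 x hx q
      · rw [← h'.2, hu, hv, hu, hv, h.2] at q
        exact x2 q), card_smul_finset, card_smul_finset] at c5
    omega
  · have c6 := fb 6 n6 (A2 ∪ A3) (union_subset (filter_subset _ _ |>.trans sdiff_subset)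
      (filter_subset _ _ |>.trans sdiff_subset)) fun x hx => by
        rcases mem_union.1 hx with h | h <;> simp [pow_succ, mul_smul, (mem_filter.1 h).2]
    rw [card_union_of_disjoint d23] at c6
    have c7 : #A ≤ #Z := card_le_card_of_injOn (fun x => if v • x = x then u • v • x else v • u • x)
      (fun x hx => by
        dsimp only
        split_ifs
        exacts [(mem_sdiff.1 (mA x hx).1).1, (mem_sdiff.1 (mA x hx).2).1]) (by
      have k : ∀ x ∈ A, ∀ y ∈ A, v • x = x → v • y ≠ y → u • v • x ≠ v • u • y := fun x hx y hy h1 h2 e => by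
        have h3 := ((mE y (mem_filter.1 hy).1).resolve_left fun h => h2 h.2).2
        refine (mem_filter.1 hx).2.2 ?_
        rw [e, hv, hu, ← h3, h3, ← h3, ← e, h1, hu]
      intro x hx y hy e
      dsimp only at e
      split_ifs at e with h1 h2 h2
      exacts [smul_left_cancel v (smul_left_cancel u e), (k x hx y hy h1 h2 e).elim,
        (k y hy x hx h2 h1 e.symm).elim, smul_left_cancel u (smul_left_cancel v e)])
    omega

end Dih

end Cfsg.Lib.Pron
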