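import Cfsg.Agent.Pron.C
import Cfsg.Agent.S0713

/-!
# The minimal degree of a quadruply transitive group of even degree
-/

set_option autoImplicit false
set_option linter.unusedSectionVars false

namespace Cfsg.Lib.Pron

open Finset MulAction
open scoped Pointwise

variable {G : Type} [Group G] {Ω : Type} [MulAction G Ω] [DecidableEq Ω] [Fintype Ω] [Fintype G]
  {u : G} {U : Finset Ω} {m t : ℕ}

theorem m_w (h : Tr (⊤ : Subgroup G) (univ : Finset Ω) t) (ht : 2 ≤ t) (hu : ∀ y ∈ U, u • y ≠ y) :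
    ∑ g : G, zv U u g⁻¹ = #U * pp G U 2 := (sum_inv _).trans (m_v h ht hu)

theorem m_wz (h : Tr (⊤ : Subgroup G) (univ : Finset Ω) t) (ht : 3 ≤ t) (hu : ∀ y ∈ U, u • y ≠ y)
    (hU : ∀ y ∈ U, u • y ∈ U) : ∑ g : G, zv U u g⁻¹ * zz U g = #U * a1 G U 2 := by
  rw [← m_vz h ht hu hU, ← sum_inv fun g => zv U u g * zz U g]
  simp only [zz_inv]

theorem m_wzz (h : Tr (⊤ : Subgroup G) (univ : Finset Ω) t) (ht : 4 ≤ t) (hu : ∀ y ∈ U, u • y ≠ y)
    (hU : ∀ y ∈ U, u • y ∈ U) : ∑ g : G, zv U u g⁻¹ * zz U g * zz U g = #U * a2 G U 2 := by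
  rw [← m_vzz h ht hu hU, ← sum_inv fun g => zv U u g * zz U g * zz U g]
  simp only [zz_inv]

theorem odd_case (h : Tr (⊤ : Subgroup G) (univ : Finset Ω) 4) (hmin : ∀ w : G, w ≠ 1 → m ≤ #(sp Ω w))
    (hm : #(sp Ω u) = m) (h2 : ∀ y ∈ sp Ω u, u • u • y ≠ y) (h6 : 6 ≤ m) {f : ℕ}
    (hf : Fintype.card Ω = 2 * f) (hlt : m < f) : False := by
  have hu : ∀ y ∈ sp Ω u, u • y ≠ y := fun _ => mem_sp.1
  have hU : ∀ y, u • y ∈ sp Ω u ↔ y ∈ sp Ω u := fun _ => smul_mem_sp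
  have hU' : ∀ y ∈ sp Ω u, u • y ∈ sp Ω u := fun y => (hU y).2
  have key : ∀ k l : ℚ, 0 ≤ k → 0 ≤ l → (∀ z a b : ℕ, a + z ≤ m → b + z ≤ m → m ≤ z + a + b →
      l * (3 * m ^ 2 * z ^ 2 * (z + a + b - m) - (3 * (m - 1) ^ 2 - 2 * (m - 2) ^ 2) *
        (2 * z - m + 2) ^ 2) ≤ k * (a + b) * (z + a + b - m)) →
      l * (3 * m ^ 2 * (3 * (m * a2 G (sp Ω u) 1) - 2 * (m * a2 G (sp Ω u) 2) - m * a2 G (sp Ω u) 0) -
        (3 * (m - 1) ^ 2 - 2 * (m - 2) ^ 2) * (4 * a2 G (sp Ω u) 0 + 4 * (2 - m) * a1 G (sp Ω u) 0 +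
          (2 - m) ^ 2 * cc G Ω 0)) ≤
      k * (6 * a2 G (sp Ω u) 0 - 10 * (m * a1 G (sp Ω u) 2) - 2 * m * a1 G (sp Ω u) 0 +
        2 * (m * (pp G (sp Ω u) 2 + 2 * pp G (sp Ω u) 3 + (m - 3) * pp G (sp Ω u) 4)) +
        2 * (m * (m * (2 * cc G Ω 2 + 4 * (m - 2) ^ 2 * cc G Ω 3 +
          ((m - 2) * (m - 3)) ^ 2 * cc G Ω 4))) + 2 * m * (m * pp G (sp Ω u) 2)) := by
    intro k l hk hl hp
    have p : ∀ g : G, l * (3 * m ^ 2 * zz (sp Ω u) g ^ 2 *
        (zz (sp Ω u) g + tt (sp Ω u) u g + tt (sp Ω u) u g⁻¹ - m) - (3 * (m - 1) ^ 2 - 2 * (m - 2) ^ 2) *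
        (2 * zz (sp Ω u) g - m + 2) ^ 2) ≤ k * (tt (sp Ω u) u g + tt (sp Ω u) u g⁻¹) *
        (zz (sp Ω u) g + tt (sp Ω u) u g + tt (sp Ω u) u g⁻¹ - m) := fun g => by
      have l1 := tt_le (sp Ω u) u g
      have l2 := tt_le (sp Ω u) u g⁻¹
      by_cases e : u * (g * u * g⁻¹) = g * u * g⁻¹ * u
      · rw [tt_comm e] at l1 ⊢
        rw [tt_comm (comm_inv e), add_zero, add_zero, add_zero, mul_zero, zero_mul]
        have : (6 : ℚ) ≤ m := by exact_mod_cast h6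
        refine mul_nonpos_of_nonneg_of_nonpos hl (sub_nonpos.2 ((mul_nonpos_of_nonneg_of_nonpos
          (by positivity) (by rw [← hm]; linarith)).trans (mul_nonneg (by nlinarith) (sq_nonneg _))))
      · have l3 := q_nonneg hmin rfl e
        obtain ⟨a, ha⟩ := tt_nat (sp Ω u) u g
        obtain ⟨b, hb⟩ := tt_nat (sp Ω u) u g⁻¹
        rw [zz_inv] at l2
        rw [ha, zz_eq, hm] at l1
        rw [hb, zz_eq, hm] at l2
        rw [ha, hb, zz_eq] at l3 ⊢
        exact hp _ a b (by exact_mod_cast le_sub_iff_add_le.1 l1)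
          (by exact_mod_cast le_sub_iff_add_le.1 l2) (by exact_mod_cast l3)
    have s := sum_le_sum fun g (_ : g ∈ (univ : Finset G)) => p g
    simp only [tt_eq hU, zz_inv] at s
    have e1 := m_z (U := sp Ω u) h (by omega)
    have e2 := m_z2 (U := sp Ω u) h (by omega)
    have e3 := m_z3 (U := sp Ω u) h (by omega)
    have e4 := m_v h (by omega) hu
    have e5 := m_w h (by omega) hu
    have e6 := m_vz h (by omega) hu hU'
    have e7 := m_wz h (by omega) hu hU'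
    have e8 := m_vzz h le_rfl hu hU'
    have e9 := m_wzz h le_rfl hu hU'
    have e10 := m_vv h le_rfl hu hU h2
    have e11 := (sum_inv fun g => zv (sp Ω u) u g * zv (sp Ω u) u g).trans e10
    have e12 := m_uv h le_rfl hu hU'
    have e0 : ∑ _g : G, (1 : ℚ) = cc G Ω 0 := by simp [cc_zero]
    rw [hm] at e3 e4 e5 e6 e7 e8 e9 e10 e11 e12
    rw [← sub_nonneg, ← sum_sub_distrib, sum_congr rfl (g := fun g =>
      l * ((3 * (m - 1) ^ 2 - 2 * (m - 2) ^ 2) * (2 - m) ^ 2) * 1 +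
      (l * (3 * (m - 1) ^ 2 - 2 * (m - 2) ^ 2) * 4 * (2 - m) - 2 * k * m) * zz (sp Ω u) g +
      (6 * k + 3 * l * m ^ 3 + 4 * l * (3 * (m - 1) ^ 2 - 2 * (m - 2) ^ 2)) *
        (zz (sp Ω u) g * zz (sp Ω u) g) +
      -(9 * l * m ^ 2) * (zz (sp Ω u) g * zz (sp Ω u) g * zz (sp Ω u) g) +
      k * m * zv (sp Ω u) u g + k * m * zv (sp Ω u) u g⁻¹ +
      -(5 * k) * (zv (sp Ω u) u g * zz (sp Ω u) g) + -(5 * k) * (zv (sp Ω u) u g⁻¹ * zz (sp Ω u) g) +
      3 * l * m ^ 2 * (zv (sp Ω u) u g * zz (sp Ω u) g * zz (sp Ω u) g) +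
      3 * l * m ^ 2 * (zv (sp Ω u) u g⁻¹ * zz (sp Ω u) g * zz (sp Ω u) g) +
      k * (zv (sp Ω u) u g * zv (sp Ω u) u g) + k * (zv (sp Ω u) u g⁻¹ * zv (sp Ω u) u g⁻¹) +
      2 * k * (zv (sp Ω u) u g⁻¹ * zv (sp Ω u) u g)) fun g _ => by ring] at s
    simp only [sum_add_distrib, ← mul_sum, e0, e1, e2, e3, e4, e5, e6, e7, e8, e9, e10, e11,
      e12] at s
    exact sub_nonneg.1 (s.trans_eq (by ring))
  have c4 : 0 < cc G Ω 4 := cc_pos (by omega)
  have c0 := cc_succ (G := G) (Ω := Ω) (k := 0) (by omega)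
  have c1 := cc_succ (G := G) (Ω := Ω) (k := 1) (by omega)
  have c2 := cc_succ (G := G) (Ω := Ω) (k := 2) (by omega)
  have c3 := cc_succ (G := G) (Ω := Ω) (k := 3) (by omega)
  obtain ⟨a, rfl⟩ := Nat.exists_eq_add_of_le' h6
  obtain ⟨b, rfl⟩ := Nat.exists_eq_add_of_lt hlt
  simp only [a2, a1, pp, df, hm, zero_add, Nat.reduceAdd] at key c0 c1 c2 c3
  rw [c0, c1, c2, c3, hf] at key
  generalize cc G Ω 4 = c at key c4
  rcases b with _ | b
  · refine absurd (key ((a + 4) ^ 2 * (a + 6) ^ 2) 1 (by positivity) zero_le_one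
      fun z x y h1 h2 h3 => ?_) (not_le.2 (sub_pos.1 (lt_of_lt_of_eq (b := c * (56832 + 666880 * a +
        677768 * a ^ 2 + 302732 * a ^ 3 + 75100 * a ^ 4 + 11124 * a ^ 5 + 983 * a ^ 6 + 48 * a ^ 7 +
        a ^ 8)) (by positivity) (by push_cast; ring))))
    obtain ⟨q, hq⟩ := Nat.exists_eq_add_of_le h3
    obtain ⟨e, he⟩ := Nat.exists_eq_add_of_le (le_of_add_le_right h1)
    have q1 : (z : ℚ) + x + y - (a + 6 : ℕ) = q := sub_eq_iff_eq_add'.2 (by exact_mod_cast hq)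
    have q2 : (x : ℚ) + y = q + e := by exact_mod_cast (by omega)
    have q3 : (z : ℚ) = a + 6 - e := eq_sub_iff_add_eq.2 (by exact_mod_cast he.symm)
    rw [q1, q2, one_mul]
    push_cast
    rcases q with _ | q
    · simp only [Nat.cast_zero, mul_zero, zero_sub, Left.neg_nonpos_iff]
      exact mul_nonneg (by nlinarith [(Nat.cast_nonneg a : (0 : ℚ) ≤ a)]) (sq_nonneg _)
    rcases e with _ | _ | e
    · omega
    · obtain rfl : q = 0 := by omega
      rw [q3]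
      push_cast
      exact le_of_eq (by ring)
    · have z1 : (z : ℚ) ≤ a + 4 := by exact_mod_cast (by omega)
      have z2 : (z : ℚ) ^ 2 ≤ (a + 4) ^ 2 := by gcongr
      refine (sub_le_self _ (mul_nonneg (by nlinarith [(Nat.cast_nonneg a : (0 : ℚ) ≤ a)])
        (sq_nonneg _))).trans (mul_le_mul_of_nonneg_right ?_ (by positivity))
      calc _ ≤ 3 * ((a : ℚ) + 6) ^ 2 * (a + 4) ^ 2 := by gcongr
        _ = (a + 4) ^ 2 * (a + 6) ^ 2 * 3 := by ring
        _ ≤ _ := by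
          gcongr
          push_cast
          linarith [(Nat.cast_nonneg q : (0 : ℚ) ≤ q), (Nat.cast_nonneg e : (0 : ℚ) ≤ e)]
  · refine absurd (key 1 0 zero_le_one le_rfl fun z x y h1 h2 h3 => ?_) (not_le.2 (sub_pos.1
      (lt_of_lt_of_eq (b := 2 * c * (a + 6) ^ 2 * (a + 10 + 2 * b) * (1 + 16 * b + 4 * b ^ 2 +
        17 * (a + 2) + 22 * (a + 2) * b + 4 * (a + 2) * b ^ 2 + 2 * (a + 2) ^ 2 + 2 * (a + 2) ^ 2 * b))
        (by positivity) (by push_cast; ring))))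
    rw [zero_mul]
    exact mul_nonneg (by positivity) (sub_nonneg.2 (by exact_mod_cast h3))

theorem inv_case (h : Tr (⊤ : Subgroup G) (univ : Finset Ω) 4) (hmin : ∀ w : G, w ≠ 1 → m ≤ #(sp Ω w))
    (hm : #(sp Ω u) = m) (h2 : u * u = 1) (h4 : 3 ≤ m) (hlt : 2 * m < Fintype.card Ω) : False := by
  obtain ⟨x, hx⟩ := card_pos.1 (by omega : 0 < #(sp Ω u))
  obtain ⟨a, -, ha⟩ := exists_mem_notMem_of_card_lt_card (by rw [card_univ]; omega :
    #(sp Ω u) < #(univ : Finset Ω))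
  have hu : ∀ y : Ω, u • u • y = y := fun y => by rw [← mul_smul, h2, one_smul]
  have e : a ≠ x := fun e => ha (e ▸ hx)
  have p : ∀ g : G, ind {a, x} (tw a x (u • x)) g * m ≤
      2 * (ind {a, x} (tw a x (u • x)) g * zz (sp Ω u) g) := fun g => by
    rw [ind_tw e]
    split_ifs with h1
    · have := dih (v := g * u * g⁻¹) hu (fun y => by simp [mul_smul, hu]) hmin hm
        (by rw [sp_conj, card_smul_finset, hm]) fun e' => mem_sp.1 hx (by
          have k := congrArg (· • g • a) e'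
          simp only [pow_two, mul_smul, inv_smul_smul, not_not.1 (mt mem_sp.2 ha), one_smul] at k
          rw [h1.1, ← h1.2, inv_smul_smul, ← eq_inv_smul_iff, inv_eq_of_mul_eq_one_right h2] at k
          exact smul_left_cancel g (k.trans h1.2.symm))
      rw [one_mul, one_mul, ← zz_inv, zz_eq, show filter _ _ = sp Ω u ∩ sp Ω (g * u * g⁻¹) by
        ext; rw [mem_filter, mem_inter, mem_sp_conj]]
      exact_mod_cast this
    · simp
  have s := sum_le_sum fun g (_ : g ∈ (univ : Finset G)) => p g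
  rw [← sum_mul, ← mul_sum, sum_ind h (injOn_tw (mem_sp.1 hx).symm) (card_le_two.trans (by omega)),
    m_cond h (by omega) ha hx (mem_sp.1 hx).symm hx (smul_mem_sp.2 hx), card_pair e, hm,
    cc_succ (k := 2) (by omega)] at s
  have c3 : 0 < cc G Ω (2 + 1) := cc_pos (by omega)
  have h4' : (3 : ℚ) ≤ m := by exact_mod_cast h4
  have hlt' : (2 * m : ℚ) < Fintype.card Ω := by exact_mod_cast hlt
  have := mul_pos (mul_pos c3 (by linarith : (0 : ℚ) < m - 2)) (sub_pos.2 hlt')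
  push_cast at s
  nlinarith

theorem mindeg [FaithfulSMul G Ω] (h : Tr (⊤ : Subgroup G) (univ : Finset Ω) 4) {f : ℕ}
    (hf : Fintype.card Ω = 2 * f) (h4 : 4 ≤ f) (hA : ¬ alternatingGroup Ω ≤ (toPermHom G Ω).range)
    {w : G} (hw : w ≠ 1) : f ≤ #(sp Ω w) := by
  classical
  obtain ⟨u, hu, hmin⟩ := exists_min_image (univ.filter fun w : G => w ≠ 1) (fun w => #(sp Ω w))
    ⟨w, by simpa using hw⟩
  simp only [mem_filter, mem_univ, true_and] at hu hmin
  refine le_trans (not_lt.1 fun hlt => ?_) (hmin w hw)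
  have hp := Nat.minFac_prime (mt orderOf_eq_one_iff.1 hu)
  have ho := orderOf_pow_orderOf_div (orderOf_pos u).ne' (Nat.minFac_dvd _)
  have hs : #(sp Ω (u ^ (orderOf u / (orderOf u).minFac))) = #(sp Ω u) := le_antisymm
    (card_le_card fun x hx => mem_sp.2 fun e => mem_sp.1 hx (mem_stabilizer_iff.1 (pow_mem e _)))
    (hmin _ fun e => hp.ne_one (by rw [← ho, e, orderOf_one]))
  generalize u ^ (orderOf u / (orderOf u).minFac) = v at ho hs
  generalize (orderOf u).minFac = p at hp ho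
  have ho' : orderOf (toPermHom G Ω v) = p := (orderOf_injective _ toPerm_injective v).trans ho
  have hv : (toPermHom G Ω v).support = sp Ω v := by ext; simp [mem_sp]
  by_cases hc : #(sp Ω v) < 2 * p
  · have c := Equiv.Perm.isCycle_of_prime_order (ho' ▸ hp) (by rwa [hv, ho'])
    have c' := c.orderOf.symm.trans ho'
    refine hA (Cfsg.Agent.S0713.result _ (isPreprimitive_of_is_two_pretransitive
      (is_two_pretransitive_iff.2 fun {a b c d} h1 h2 => ?_)) hp (by omega)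
      (by rw [hv] at c'; omega) c c' ⟨v, rfl⟩)
    obtain ⟨g, -, e⟩ := (h.mono (by omega)).two (mem_univ a) (mem_univ b) (mem_univ c) (mem_univ d)
      h1 h2
    exact ⟨⟨_, g, rfl⟩, e⟩
  rcases hp.eq_two_or_odd' with rfl | ⟨k, rfl⟩
  · exact inv_case h hmin hs (by rw [← pow_two, ← ho, pow_orderOf_eq_one]) (by omega) (by omega)
  · refine odd_case h hmin hs (fun y hy e => mem_sp.1 hy ?_) (by have := hp.two_le; omega) hf hlt
    have e' : (v ^ 2) ^ k • y = y := mem_stabilizer_iff.1 (pow_mem (by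
      rw [mem_stabilizer_iff, pow_two, mul_smul, e]) k)
    have := congrArg (· • y) (pow_orderOf_eq_one v)
    rwa [ho, pow_succ', mul_smul, pow_mul, e', one_smul] at this

end Cfsg.Lib.Pron
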