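import Cfsg.Agent.Pron.D

/-!
# The endgame: a pronormal subgroup whose support has minimal size
-/

set_option autoImplicit false
set_option linter.unusedSectionVars false

namespace Cfsg.Lib.Pron

open Finset MulAction
open scoped Pointwise

variable {G : Type} [Group G] {Ω : Type} [MulAction G Ω] [DecidableEq Ω] {H K : Subgroup G}

theorem Pro.stab_set (h : Pro H K) {g : G} (hg : g ∈ H)
    (e : ∀ k ∈ K, ∀ x : Ω, Fx K ((g * k * g⁻¹) • x) ↔ Fx K x) (x : Ω) : Fx K (g • x) ↔ Fx K x := by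
  obtain ⟨w, hw, e'⟩ := h.2 g hg (stabilizer G {x : Ω | Fx K x})
    (fun k hk => mem_stabilizer_set.2 (fx_mem hk)) fun k hk => mem_stabilizer_set.2 (e k hk)
  rw [← fx_norm e' x, mul_smul]
  exact (mem_stabilizer_set.1 (inv_mem hw) _).symm

theorem Pro.disj (h : Pro H K) {g : G} (hg : g ∈ H) (hx : ∃ x : Ω, ¬ Fx K x)
    (e : ∀ x : Ω, ¬ Fx K x → Fx K (g • x)) : False := by
  obtain ⟨x, hx⟩ := hx
  refine hx (inv_smul_smul g x ▸ (h.stab_set (inv_mem hg) (fun k hk y => ?_) (g • x)).2 (e x hx))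
  have k1 : ∀ z : Ω, ¬ Fx K z → (g⁻¹ * k * g⁻¹⁻¹) • z = z := fun z hz => by
    rw [inv_inv, mul_smul, mul_smul, e z hz k hk, inv_smul_smul]
  refine ⟨fun h1 => by_contra fun h2 => h2 (k1 y h2 ▸ h1), fun h1 => by_contra fun h2 => h2 ?_⟩
  rwa [smul_left_cancel _ (k1 _ h2)]

variable [Fintype Ω] [Fintype G] {S : Finset Ω}

theorem exists_emb (hS : ∀ x, x ∈ S ↔ ¬ Fx K x) (hf : 2 * #S ≤ Fintype.card Ω) :
    ∃ σ : Equiv.Perm Ω, ∀ x ∈ S, Fx K (σ x) := by
  obtain ⟨T, h1, h2⟩ := exists_subset_card_eq (s := Sᶜ) (n := #S) (by rw [card_compl]; omega)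
  obtain ⟨σ, hσ⟩ := Equiv.Perm.exists_extending_pair (f := ((↑) : S → Ω))
    (g := fun x => ((equivOfCardEq h2.symm x : T) : Ω)) Subtype.val_injective
    (Subtype.val_injective.comp (Equiv.injective _))
  exact ⟨σ, fun x hx => by_contra fun e => mem_compl.1 (h1 (equivOfCardEq h2.symm ⟨x, hx⟩).2)
    (hσ ⟨x, hx⟩ ▸ (hS _).2 e)⟩

theorem small (hP : Pro ⊤ K) (hS : ∀ x, x ∈ S ↔ ¬ Fx K x) (hf : 2 * #S ≤ Fintype.card Ω)
    (hx : ∃ x : Ω, ¬ Fx K x) (h : Tr (⊤ : Subgroup G) (univ : Finset Ω) #S) : False := by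
  obtain ⟨σ, hσ⟩ := exists_emb hS hf
  obtain ⟨g, hg, e⟩ := h S σ (subset_univ _) (by simp) σ.injective.injOn le_rfl
  exact hP.disj hg hx fun x hx => e x ((hS x).2 hx) ▸ hσ x ((hS x).2 hx)

theorem not_alt (hP : Pro ⊤ K) (hS : ∀ x, x ∈ S ↔ ¬ Fx K x) (hf : 2 * #S ≤ Fintype.card Ω)
    (h2 : 2 ≤ #S) : ¬ alternatingGroup Ω ≤ (toPermHom G Ω).range := fun h => by
  obtain ⟨σ, hσ⟩ := exists_emb hS hf
  obtain ⟨a, ha, b, hb, e⟩ := one_lt_card.1 h2
  have k : ∀ τ : Equiv.Perm Ω, Equiv.Perm.sign τ = 1 → (∀ x ∈ S, Fx K (τ x)) → False := fun τ h1 h2 => by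
    obtain ⟨g, rfl⟩ := h (Equiv.Perm.mem_alternatingGroup.2 h1)
    exact hP.disj (Subgroup.mem_top g) ⟨a, (hS a).1 ha⟩ fun x hx => h2 x ((hS x).2 hx)
  rcases Int.units_eq_one_or (Equiv.Perm.sign σ) with h1 | h1
  · exact k σ h1 hσ
  · refine k (σ * Equiv.swap a b) (by simp [h1, e]) fun x hx => hσ _ ?_
    rw [Equiv.swap_apply_def]
    split_ifs <;> assumption

open Classical in
theorem half {A : Subgroup G} (h : ¬ K ≤ A) :
    #(univ.filter (· ∈ K)) ≤ 2 * #((univ.filter (· ∈ K)).filter (· ∉ A)) := by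
  obtain ⟨k, hk, hk'⟩ := SetLike.not_le_iff_exists.1 h
  rw [← card_filter_add_card_filter_not (s := univ.filter (· ∈ K)) (· ∈ A), two_mul]
  refine add_le_add_left (card_le_card_of_injOn (k * ·) (fun a ha => ?_) fun _ _ _ _ e =>
    mul_left_cancel e) _
  simp only [coe_filter, mem_filter, mem_univ, true_and, Set.mem_ofPred_eq] at ha ⊢
  exact ⟨mul_mem hk ha.1, fun e => hk' ((mul_mem_cancel_right ha.2).1 e)⟩

theorem tt_nonneg (U : Finset Ω) (u g : G) : 0 ≤ tt U u g := by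
  obtain ⟨a, ha⟩ := tt_nat U u g
  rw [ha]
  positivity

theorem endgame (hP : Pro ⊤ K) (h : Tr (⊤ : Subgroup G) (univ : Finset Ω) 3)
    (hS : ∀ x, x ∈ S ↔ ¬ Fx K x) (hf : Fintype.card Ω = 2 * #S) (h2 : 2 ≤ #S)
    (hmin : ∀ w : G, w ≠ 1 → #S ≤ #(sp Ω w)) : False := by
  classical
  set T := (univ.filter (· ∈ K)).erase 1 with hT
  have mT : ∀ u, u ∈ T ↔ u ≠ 1 ∧ u ∈ K := fun u => by simp [hT]
  have hs : ∀ u ∈ T, sp Ω u = S := fun u hu => eq_of_subset_of_card_le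
    (fun x hx => (hS x).2 fun e => mem_sp.1 hx (e u ((mT u).1 hu).2)) (hmin u ((mT u).1 hu).1)
  have z0 : ∀ g : G, 0 ≤ #S - zz S g := fun g => (tt_nonneg S 1 g).trans (tt_le S 1 g)
  have key : ∀ g : G, ∀ u ∈ T, u * (g * u * g⁻¹) = g * u * g⁻¹ * u →
      #T * (#S - zz S g) ≤ 2 * ∑ v ∈ T, tt S v g := fun g u hu e => by
    by_cases hg : K ≤ (stabilizer G S).comap (MulAut.conj g).toMonoidHom
    · have := hP.stab_set (Ω := Ω) (Subgroup.mem_top g) fun k hk x => not_iff_not.1 (by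
        rw [← hS, ← hS]
        exact mem_stabilizer_finset.1 (hg hk) x)
      rw [zz_eq, filter_true_of_mem fun x hx => by rwa [hS, this, ← hS], sub_self, mul_zero]
      exact mul_nonneg zero_le_two (sum_nonneg fun v _ => tt_nonneg S v g)
    have c := half hg
    have c' : #T ≤ #(univ.filter (· ∈ K)) := card_erase_le
    set N := (univ.filter (· ∈ K)).filter (· ∉ (stabilizer G S).comap (MulAut.conj g).toMonoidHom)
    have hN : N ⊆ T := fun v hv => (mT v).2 ⟨fun e => (mem_filter.1 hv).2 (e ▸ one_mem _),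
      (mem_filter.1 (mem_filter.1 hv).1).2⟩
    have s1 : #N • (#S - zz S g) ≤ ∑ v ∈ N, tt S v g := card_nsmul_le_sum _ _ _ fun v hv => by
      have := q_nonneg hmin ((hs v (hN hv)).trans (hs u hu).symm) (g := g) fun e' =>
        (mem_filter.1 hv).2 (by
          change (g * v * g⁻¹) • S = S
          rw [← hs u hu, ← sp_conj, ← e', mul_inv_cancel_right])
      rw [tt_comm (comm_inv e), hs u hu] at this
      linarith
    have s2 : ∑ v ∈ N, tt S v g ≤ ∑ v ∈ T, tt S v g :=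
      sum_le_sum_of_subset_of_nonneg hN fun v _ _ => tt_nonneg S v g
    have c2 : (#T : ℚ) ≤ 2 * #N := by exact_mod_cast c'.trans c
    rw [nsmul_eq_mul] at s1
    nlinarith [z0 g]
  have hQ : ∀ g : G, ∑ u ∈ T, (zz S g + tt S u g + tt S u g⁻¹ - #S) ≤
      (#S - zz S g) * ∑ u ∈ T, (zz S g + tt S u g + tt S u g⁻¹ - #S) := fun g => by
    have p : 0 ≤ ∑ u ∈ T, (zz S g + tt S u g + tt S u g⁻¹ - #S) := by
      by_cases e : ∃ u ∈ T, u * (g * u * g⁻¹) = g * u * g⁻¹ * u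
      · obtain ⟨u, hu, e⟩ := e
        have k1 := key g u hu e
        have k2 := key g⁻¹ u hu (comm_inv e)
        rw [zz_inv] at k2
        simp only [sum_sub_distrib, sum_add_distrib, sum_const, nsmul_eq_mul]
        linarith
      · exact sum_nonneg fun u hu => sub_nonneg.2 (hs u hu ▸ q_nonneg (hs u hu ▸ hmin) rfl
          fun e' => e ⟨u, hu, e'⟩)
    rcases (z0 g).eq_or_lt with e | e
    · rw [← e, zero_mul]
      refine sum_nonpos fun u _ => ?_
      have := tt_le S u g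
      have := tt_le S u g⁻¹
      rw [zz_inv] at this
      linarith
    · refine le_mul_of_one_le_left p ?_
      rw [zz_eq, sub_pos, Nat.cast_lt] at e
      rw [zz_eq, le_sub_iff_add_le']
      exact_mod_cast e
  have s := sum_le_sum fun g (_ : g ∈ (univ : Finset G)) => hQ g
  have c3 : 0 < cc G Ω 3 := cc_pos (by omega)
  have c0 := cc_succ (G := G) (Ω := Ω) (k := 0) (by omega)
  have c1 := cc_succ (G := G) (Ω := Ω) (k := 1) (by omega)
  have c2 := cc_succ (G := G) (Ω := Ω) (k := 2) (by omega)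
  have e0 : ∑ _g : G, (1 : ℚ) = cc G Ω 0 := by simp [cc_zero]
  rw [← sub_nonneg, ← sum_sub_distrib] at s
  simp only [mul_sum, ← sum_sub_distrib] at s
  rw [sum_comm] at s
  refine absurd s (not_le.2 (sum_neg (fun u hu => ?_) ?_))
  · have hu1 : ∀ y ∈ S, u • y ≠ y := fun y hy => mem_sp.1 (hs u hu ▸ hy)
    have hU : ∀ y, u • y ∈ S ↔ y ∈ S := fun _ => hs u hu ▸ smul_mem_sp
    have hU' : ∀ y ∈ S, u • y ∈ S := fun y => (hU y).2
    simp only [tt_eq hU, zz_inv]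
    rw [sum_congr rfl (g := fun g => (#S - #S ^ 2) * 1 + (4 * #S - 3) * zz S g + -3 * (zz S g * zz S g) +
      (1 - #S) * zv S u g + (1 - #S) * zv S u g⁻¹ + zv S u g * zz S g + zv S u g⁻¹ * zz S g)
      fun g _ => by ring]
    simp only [sum_add_distrib, ← mul_sum, e0, m_z h (by omega), m_z2 h (by omega),
      m_v h (by omega) hu1, m_w h (by omega) hu1, m_vz h le_rfl hu1 hU', m_wz h le_rfl hu1 hU']
    simp only [a2, a1, pp, df, zero_add, Nat.reduceAdd] at c0 c1 c2 ⊢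
    rw [c0, c1, c2, hf]
    obtain ⟨a, ha⟩ := Nat.exists_eq_add_of_le' h2
    rw [ha]
    exact lt_of_eq_of_lt (b := -(cc G Ω 3 * (2 * (a + 2) ^ 2 * (a + 1)))) (by push_cast; ring)
      (neg_neg_of_pos (by positivity))
  · obtain ⟨x, hx⟩ := card_pos.1 (by omega : 0 < #S)
    have := (hS x).1 hx
    simp only [Fx, not_forall] at this
    obtain ⟨k, hk, e⟩ := this
    exact ⟨k, (mT k).2 ⟨fun e' => e (by rw [e', one_smul]), hk⟩⟩

end Cfsg.Lib.Pron
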