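import Cfsg.Agent.Pron.E

/-!
# The quadruple system case and the rank three case
-/

set_option autoImplicit false
set_option linter.unusedSectionVars false

namespace Cfsg.Lib.Pron

open Finset MulAction
open scoped Pointwise

variable {G : Type} [Group G] {Ω : Type} [MulAction G Ω] [DecidableEq Ω] {H K : Subgroup G} {n : ℕ}

/-- The closure of three points. -/
def C3 (K : Subgroup G) (a b c d : Ω) : Prop :=
  ∀ g : G, Fx K (g • a) → Fx K (g • b) → Fx K (g • c) → Fx K (g • d)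

theorem C3_eq_1' : type_of% @C3.eq_1 := @C3.eq_1

theorem c3_smul {a b c d : Ω} (r : G) : C3 K (r • a) (r • b) (r • c) (r • d) ↔ C3 K a b c d :=
  ⟨fun h g => by simpa only [mul_smul, inv_smul_smul] using h (g * r⁻¹),
    fun h g => by simpa only [mul_smul] using h (g * r)⟩

theorem cl_iff (hP : Pro ⊤ K) {α β : Ω} (hα : Fx K α) (hβ : Fx K β) {c d : Ω} :
    Cl (⊤ ⊓ stabilizer G α ⊓ stabilizer G β) K c d ↔ C3 K α β c d := by
  refine ⟨fun h g h1 h2 h3 => ?_, fun h g hg => h g (by rwa [hg.1.2]) (by rwa [hg.2])⟩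
  obtain ⟨m, -, e, e'⟩ := hP.witt (Subgroup.mem_top g) {α, β} (by simp [*])
  have := h (m⁻¹ * g) (mem_st.2 ⟨mem_st.2 ⟨trivial, by rw [mul_smul, ← e α (by simp), inv_smul_smul]⟩,
    by rw [mul_smul, ← e β (by simp), inv_smul_smul]⟩)
  rw [← e', ← e' (_ • d), mul_smul, mul_smul, smul_inv_smul, smul_inv_smul] at this
  exact this h3

theorem sqs [Fintype Ω] [Fintype G] (hP : Pro ⊤ K) (h : Tr (⊤ : Subgroup G) (univ : Finset Ω) 2)
    {S : Finset Ω} (hS : ∀ x, x ∈ S ↔ ¬ Fx K x) (hf : Fintype.card Ω = 2 * #S) {α β γ : Ω}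
    (hα : Fx K α) (hβ : Fx K β) (ne : α ≠ β) (hγ : γ ∈ (univ.erase α).erase β)
    (hO : Orb (⊤ ⊓ stabilizer G α ⊓ stabilizer G β) ((univ.erase α).erase β))
    (hb : #(bl (⊤ ⊓ stabilizer G α ⊓ stabilizer G β) K ((univ.erase α).erase β) γ) = 2) : False := by
  classical
  have tr : ∀ a b : Ω, a ≠ b → ∃ r : G, r • a = α ∧ r • b = β := fun a b e =>
    (h.two (mem_univ _) (mem_univ _) (mem_univ _) (mem_univ _) e ne).imp fun _ h => h.2
  have mO : ∀ {a b c : Ω} {r : G}, r • a = α → r • b = β →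
      (r • c ∈ (univ.erase α).erase β ↔ c ≠ a ∧ c ≠ b) := fun h1 h2 => by
    simp [← h1, ← h2, and_comm]
  have sw : ∀ {a b c d : Ω}, a ≠ b → c ≠ a ∧ c ≠ b → d ≠ a ∧ d ≠ b → C3 K a b c d → C3 K a b d c :=
    fun {a b c d} e hc hd h => by
      obtain ⟨r, r1, r2⟩ := tr a b e
      rw [← c3_smul r, r1, r2, ← cl_iff hP hα hβ] at h ⊢
      exact hO.cl_symm ((mO r1 r2).2 hc) ((mO r1 r2).2 hd) h
  have ex : ∀ a b : Ω, a ≠ b → ∀ c, ∃ d, c ≠ a ∧ c ≠ b → (d ≠ a ∧ d ≠ b) ∧ d ≠ c ∧ C3 K a b c d ∧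
      ∀ c', c' ≠ a ∧ c' ≠ b → c' ≠ d → C3 K a b c' d → c' = c := fun a b e c => by
    by_cases hc : c ≠ a ∧ c ≠ b
    swap
    · exact ⟨c, fun h => (hc h).elim⟩
    obtain ⟨r, r1, r2⟩ := tr a b e
    have hc' := (mO r1 r2).2 hc
    have c2 := (hO.card_bl (K := K) hγ hc').trans hb
    obtain ⟨d, hd, n⟩ := exists_mem_ne (c2 ▸ one_lt_two) (r • c)
    obtain ⟨d, rfl⟩ := MulAction.surjective r d
    have hd' := mem_bl.1 hd
    refine ⟨d, fun _ => ⟨(mO r1 r2).1 hd'.1, fun e => n (e ▸ rfl), ?_, fun c' h1 h2 h3 => ?_⟩⟩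
    · rw [← c3_smul r, r1, r2, ← cl_iff hP hα hβ]
      exact hd'.2
    · rw [← c3_smul r, r1, r2, ← cl_iff hP hα hβ] at h3
      by_contra h4
      refine absurd c2 (ne_of_gt (two_lt_card.2 ⟨_, mem_bl.2 ⟨hc', Cl.refl _⟩, _, hd, r • c',
        mem_bl.2 ⟨(mO r1 r2).2 h1, hd'.2.trans (hO.cl_symm ((mO r1 r2).2 h1) hd'.1 h3)⟩, n.symm,
        fun e => h4 (smul_left_cancel r e).symm, fun e => h2 (smul_left_cancel r e).symm⟩))
  have mF : ∀ x, x ∈ Sᶜ ↔ Fx K x := fun x => by rw [mem_compl, hS, not_not]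
  have cF : #Sᶜ = #S := by rw [card_compl]; omega
  have pS : 0 < #S := cF ▸ card_pos.2 ⟨α, (mF α).2 hα⟩
  have p : ∀ g : G, #S ≤ 2 * #(Sᶜ.filter fun y => g • y ∈ Sᶜ) := fun g => by
    have c1 : #(Sᶜ.filter fun y => g • y ∈ Sᶜ) + #(S.filter fun y => g • y ∈ Sᶜ) = #S := by
      rw [← card_union_of_disjoint (disjoint_filter_filter disjoint_compl_left), ← filter_union,
        union_comm, union_compl, ← cF, ← card_smul_finset g⁻¹ Sᶜ]
      congr 1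
      ext y
      simp only [mem_filter, mem_univ, true_and, ← inv_smul_mem_iff, inv_inv]
    rcases (S.filter fun y => g • y ∈ Sᶜ).eq_empty_or_nonempty with e | ⟨y, hy⟩
    · rw [e, card_empty] at c1
      omega
    rcases (Sᶜ.filter fun y => g • y ∈ Sᶜ).eq_empty_or_nonempty with e | ⟨a, ha⟩
    · rw [e, card_empty, zero_add, card_filter_eq_iff] at c1
      exact (hP.disj (Subgroup.mem_top g) ⟨y, (hS y).1 (mem_filter.1 hy).1⟩ fun x hx =>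
        (mF _).1 (c1 x ((hS x).2 hx))).elim
    obtain ⟨hy1, hy2⟩ := mem_filter.1 hy
    obtain ⟨ha1, ha2⟩ := mem_filter.1 ha
    have e : a ≠ y := fun e => mem_compl.1 ha1 (e ▸ hy1)
    choose q hq using ex a y e
    have hF : ∀ x ∈ Sᶜ.erase a, x ≠ a ∧ x ≠ y := fun x hx =>
      ⟨(mem_erase.1 hx).1, fun e => mem_compl.1 (mem_erase.1 hx).2 (e ▸ hy1)⟩
    have im : (Sᶜ.erase a).image q = S.erase y := by
      refine eq_of_subset_of_card_le (image_subset_iff.2 fun x hx => ?_) ?_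
      · obtain ⟨h1, h2, h3, -⟩ := hq x (hF x hx)
        refine mem_erase.2 ⟨h1.2, (hS _).2 fun h4 => (hS y).1 hy1 ?_⟩
        have := sw (hF x hx).1.symm ⟨e.symm, (hF x hx).2.symm⟩ ⟨h1.1, h2⟩
          (fun g k1 k2 k3 => h3 g k1 k3 k2) 1
        simp only [one_smul] at this
        exact this ((mF _).1 ha1) ((mF _).1 (mem_erase.1 hx).2) h4
      · rw [card_image_of_injOn fun x hx x' hx' (e' : q x = q x') => (hq x' (hF x' hx')).2.2.2 x (hF x hx)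
          (e' ▸ (hq x (hF x hx)).2.1.symm) (e' ▸ (hq x (hF x hx)).2.2.1), card_erase_of_mem hy1,
          card_erase_of_mem ha1, cF]
    have c2 : #((S.filter fun y => g • y ∈ Sᶜ).erase y) ≤
        #((Sᶜ.filter fun y => g • y ∈ Sᶜ).erase a) := (card_le_card fun x hx => by
      obtain ⟨h1, h2⟩ := mem_erase.1 hx
      obtain ⟨x, hx', rfl⟩ := mem_image.1 (im ▸ mem_erase.2 ⟨h1, (mem_filter.1 h2).1⟩)
      obtain ⟨k1, k2, k3, -⟩ := hq x (hF x hx')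
      exact mem_image_of_mem q (mem_erase.2 ⟨(hF x hx').1, mem_filter.2 ⟨(mem_erase.1 hx').2,
        (mF _).2 (sw e (hF x hx') k1 k3 g ((mF _).1 ha2) ((mF _).1 hy2)
          ((mF _).1 (mem_filter.1 h2).2))⟩⟩)).trans (card_image_le (f := q))
    rw [card_erase_of_mem hy, card_erase_of_mem ha] at c2
    have := card_pos.2 ⟨a, ha⟩
    omega
  have s : ∑ _g : G, (#S : ℚ) < ∑ g : G, 2 * zz Sᶜ g := sum_lt_sum (fun g _ => by
    rw [zz_eq]; exact_mod_cast p g) ⟨1, mem_univ _, by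
      rw [zz_eq, filter_true_of_mem fun x hx => by rwa [one_smul], cF]
      exact_mod_cast (by omega)⟩
  rw [← mul_sum, m_z h (by omega), sum_const, card_univ, nsmul_eq_mul, ← cc_zero (Ω := Ω),
    cc_succ (by omega), hf] at s
  simp only [a1, pp, df, cF] at s
  push_cast at s
  linarith

theorem rank3 (hA : AA n) (hP : Pro H K) {O : Finset Ω} (hO : Orb H O) (hn : #O < n) {β γ : Ω}
    (h1 : β ∈ O) (h2 : γ ∈ O.erase β) (hβ : Fx K β) (hγ : Fx K γ) (hT : Tr H O 2) {Γ Δ : Finset Ω}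
    (hΓ : Orb (H ⊓ stabilizer G β ⊓ stabilizer G γ) Γ) (hΔ : Orb (H ⊓ stabilizer G β ⊓ stabilizer G γ) Δ)
    (hU : Γ ∪ Δ = (O.erase β).erase γ) (hD : Disjoint Γ Δ) (d1 : dl K Γ = 1) (d2 : dl K Δ = 2)
    (hx : ∃ x ∈ Γ, ¬ Fx K x) : False := by
  classical
  have P3 := (hP.stab hβ).stab hγ
  obtain ⟨nγ, h2'⟩ := mem_erase.1 h2
  have mU : ∀ {x}, x ∈ Γ ∪ Δ ↔ x ≠ γ ∧ x ≠ β ∧ x ∈ O := by simp [hU]
  have mΓ : ∀ {x}, x ∈ Γ → x ≠ γ ∧ x ≠ β ∧ x ∈ O := fun h => mU.1 (mem_union_left _ h)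
  have mΔ : ∀ {x}, x ∈ Δ → x ≠ γ ∧ x ≠ β ∧ x ∈ O := fun h => mU.1 (mem_union_right _ h)
  have cU : #Γ + #Δ + 2 = #O := by
    rw [← card_union_of_disjoint hD, hU, ← card_erase_add_one h1, ← card_erase_add_one h2]
  have T2 := hΓ.tr_two hA P3 (by omega) hx d1
  have v3 := three_le (fun k hk => hΓ.inv k (P3.1 hk)) d1 hx
  obtain ⟨R, hR⟩ : ∃ R : Ω → Ω → Ω → Prop,
    ∀ b c d, R b c d ↔ ∃ g ∈ H, g • b = β ∧ g • c = γ ∧ g • d ∈ Γ := ⟨_, fun _ _ _ => Iff.rfl⟩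
  have ri : ∀ {b c d} {r : G}, r ∈ H → (R (r • b) (r • c) (r • d) ↔ R b c d) := fun {b c d r} hr => by
    simp only [hR]
    exact ⟨fun ⟨g, hg, e⟩ => ⟨g * r, mul_mem hg hr, by simpa only [mul_smul] using e⟩,
      fun ⟨g, hg, e⟩ => ⟨g * r⁻¹, mul_mem hg (inv_mem hr), by
        simpa only [mul_smul, inv_smul_smul] using e⟩⟩
  have rb : ∀ {d}, R β γ d ↔ d ∈ Γ := fun {d} => (hR _ _ _).trans ⟨fun ⟨g, hg, e1, e2, e3⟩ =>
    inv_smul_smul g d ▸ hΓ.inv _ (inv_mem ⟨⟨hg, e1⟩, e2⟩) _ e3,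
    fun h => ⟨1, one_mem _, by simpa using h⟩⟩
  have rm : ∀ {b c d}, R b c d → b ≠ c ∧ d ≠ c ∧ d ≠ b ∧ b ∈ O ∧ c ∈ O ∧ d ∈ O := fun {b c d} h => by
    obtain ⟨g, hg, rfl, rfl, e⟩ := (hR _ _ _).1 h
    have := mΓ e
    simp only [ne_eq, smul_left_cancel_iff] at this nγ
    exact ⟨fun e => nγ e.symm, this.1, this.2.1, inv_smul_smul g b ▸ hO.inv _ (inv_mem hg) _ h1,
      inv_smul_smul g c ▸ hO.inv _ (inv_mem hg) _ h2',
      inv_smul_smul g d ▸ hO.inv _ (inv_mem hg) _ this.2.2⟩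
  have tr : ∀ {b c}, b ∈ O → c ∈ O → b ≠ c → ∃ g ∈ H, g • b = β ∧ g • c = γ :=
    fun hb hc e => hT.two hb hc h1 h2' e nγ.symm
  have r0 : ∀ {y y'}, y ∈ Γ → y' ∈ Γ → ¬ R β y y' := fun hy hy' h => by
    obtain ⟨g, hg, e1, e2, e3⟩ := (hR _ _ _).1 h
    exact clique hA (hP.stab hβ) hγ (fun h => (mΓ h).1 rfl) hΓ d1 hx T2 (by omega) hy hy'
      (rm h).2.1.symm ⟨hg, e1⟩ e2 e3
  have r1 : ∀ {b c d e}, R b c d → R b c e → ¬ R b d e := fun {b c d e} k1 k2 k3 => by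
    obtain ⟨g, hg, e1, e2, e3⟩ := (hR _ _ _).1 k1
    rw [← ri hg, e1] at k2 k3
    exact r0 e3 (rb.1 (e2 ▸ k2)) k3
  have nr : ∀ {b c d}, b ∈ O → c ∈ O → d ∈ O → b ≠ c → d ≠ c → d ≠ b → ¬ R b c d → ∀ {z}, z ∈ Δ →
      ∃ g ∈ H, g • b = β ∧ g • c = γ ∧ g • d = z := fun {b c d} hb hc hd n1 n2 n3 h z hz => by
    obtain ⟨g, hg, e1, e2⟩ := tr hb hc n1
    obtain ⟨k, hk, e3⟩ := hΔ.tr _ ((mem_union.1 (mU.2 ⟨e2 ▸ mt (smul_left_cancel g) n2,
      e1 ▸ mt (smul_left_cancel g) n3, hO.inv g hg d hd⟩)).resolve_left fun e =>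
        h ((hR _ _ _).2 ⟨g, hg, e1, e2, e⟩)) z hz
    exact ⟨k * g, mul_mem hk.1.1 hg, by rw [mul_smul, e1, hk.1.2], by rw [mul_smul, e2, hk.2],
      by rw [mul_smul, e3]⟩
  obtain ⟨y, hy, y', hy', ne⟩ := one_lt_card.1 (by omega : 1 < #Γ)
  obtain ⟨z, hz⟩ : Δ.Nonempty := nonempty_iff_ne_empty.2 fun e => by simp [e, dl] at d2
  have r3 : ∀ {b c d}, R b c d → R b d c := fun {b c d} h => by_contra fun h' => by
    obtain ⟨n1, n2, n3, hb, hc, hd⟩ := rm h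
    obtain ⟨g, hg, e1, e2, e3⟩ := nr hb hd hc n3.symm n2.symm n1.symm h' hz
    obtain ⟨k, hk, f1, f2, f3⟩ := nr h1 (mΓ hy).2.2 (mΓ hy').2.2 (mΓ hy).2.1.symm ne.symm
      (mΓ hy').2.1 (r0 hy hy') hz
    rw [← ri hg, e1, e2, e3, ← f2, ← f3] at h
    nth_rw 1 [← f1] at h
    exact r0 hy' hy ((ri hk).1 h)
  obtain ⟨N, hN⟩ : ∃ N : Ω → Finset Ω, ∀ x y, y ∈ N x ↔ R β x y :=
    ⟨fun x => O.filter (R β x), fun x y => mem_filter.trans (and_iff_right_of_imp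
      fun h => (rm h).2.2.2.2.2)⟩
  have Nγ : N γ = Γ := ext fun x => (hN _ _).trans rb
  have Ns : ∀ {g : G}, g ∈ H → g • β = β → ∀ x, g • N x = N (g • x) := fun {g} hg e x => by
    ext y
    rw [← inv_smul_mem_iff, hN, hN, ← ri hg, e, smul_inv_smul]
  have Nc : ∀ x ∈ O.erase β, #(N x) = #Γ := fun x hx => by
    obtain ⟨g, hg, e1, e2⟩ := tr h1 (mem_erase.1 hx).2 (mem_erase.1 hx).1.symm
    rw [← Nγ, ← e2, ← Ns hg e1, card_smul_finset]
  have Nsub : ∀ {y}, y ∈ Γ → N y ⊆ insert γ Δ := fun hy x hx => by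
    have := rm ((hN _ _).1 hx)
    refine mem_insert.2 (or_iff_not_imp_left.2 fun e => ?_)
    exact (mem_union.1 (mU.2 ⟨e, this.2.2.1, this.2.2.2.2.2⟩)).resolve_left fun h =>
      r0 hy h ((hN _ _).1 hx)
  have nΔ : γ ∉ Δ := fun h => (mΔ h).1 rfl
  have a1 := dl_eq (K := K) Γ
  have a2 := card_eq K Γ
  by_cases hb : ∀ y ∈ Γ, ∀ z ∈ Δ, R β y z
  · have c1 : #Δ < #Γ := by
      rw [← Nc y (mem_erase.2 (mΓ hy).2)]
      refine card_lt_card ⟨fun x hx => (hN _ _).2 (hb y hy x hx), fun h => nΔ (h ?_)⟩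
      exact (hN _ _).2 (r3 (rb.2 hy))
    obtain ⟨s, hs, s1, s2⟩ := tr h2' h1 nγ
    have sΓ : ∀ d ∈ Γ, s • d ∈ Γ := fun d hd => by_contra fun e => c1.not_ge (card_le_card_of_injOn
      (s • ·) (fun x hx => ?_) fun _ _ _ _ e => smul_left_cancel s e)
    · have r4 : ∀ {b c d}, R b c d → R c b d := fun h => by
        obtain ⟨g, hg, e1, e2, e3⟩ := (hR _ _ _).1 h
        exact (hR _ _ _).2 ⟨s * g, mul_mem hs hg, by rw [mul_smul, e2, s1], by rw [mul_smul, e1, s2],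
          by rw [mul_smul]; exact sΓ _ e3⟩
      obtain ⟨g, hg, e1, e2⟩ := tr (mΓ hy).2.2 (mΓ hy').2.2 ne
      have k : ∀ {d}, d ∈ O → d ≠ y → d ≠ y' → ¬ R y y' d → g • d ∈ Δ := fun hd n1 n2 h =>
        (mem_union.1 (mU.2 ⟨e2 ▸ mt (smul_left_cancel g) n2, e1 ▸ mt (smul_left_cancel g) n1,
          hO.inv g hg _ hd⟩)).resolve_left fun e => h ((hR _ _ _).2 ⟨g, hg, e1, e2, e⟩)
      have k1 := k h1 (mΓ hy).2.1.symm (mΓ hy').2.1.symm fun h => r0 hy hy' (r4 (r3 h))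
      have k2 := k h2' (mΓ hy).1.symm (mΓ hy').1.symm fun h =>
        r1 (r4 (rb.2 hy)) (r4 (rb.2 hy')) (r4 (r3 h))
      have k3 := r4 (r3 (rb.2 hy))
      rw [← ri hg, e1] at k3
      have : insert (g • γ) Γ ⊆ N (g • β) := insert_subset ((hN _ _).2 k3) fun x hx =>
        (hN _ _).2 (r3 (hb x hx _ k1))
      have := card_le_card this
      rw [Nc _ (mem_erase.2 (mΔ k1).2), card_insert_of_notMem (disjoint_right.1 hD k2)] at this
      omega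
    · obtain ⟨h, hh, rfl⟩ := hΓ.tr d hd x hx
      have := hΔ.inv (s * h * s⁻¹) (mem_st.2 ⟨mem_st.2 ⟨mul_mem (mul_mem hs hh.1.1) (inv_mem hs),
        by rw [mul_smul, inv_smul_eq_iff.2 s1.symm, mul_smul, hh.2, s1]⟩,
        by rw [mul_smul, inv_smul_eq_iff.2 s2.symm, mul_smul, hh.1.2, s2]⟩) _ ((mem_union.1 (mU.2 ⟨s2 ▸ mt (smul_left_cancel s) (mΓ hd).2.1,
          s1 ▸ mt (smul_left_cancel s) (mΓ hd).1, hO.inv s hs d (mΓ hd).2.2⟩)).resolve_left e)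
      rwa [mul_smul, inv_smul_smul, mul_smul] at this
  push Not at hb
  obtain ⟨y, hy, z, hz, hb⟩ := hb
  have yO := mem_erase.2 (mΓ hy).2
  have zO := mem_erase.2 (mΔ hz).2
  have c1 : #Γ ≤ #Δ := by
    have := card_le_card (show insert z (N y) ⊆ insert γ Δ from
      insert_subset (mem_insert_of_mem hz) (Nsub hy))
    rw [card_insert_of_notMem (mt (hN _ _).1 hb), card_insert_of_notMem nΔ, Nc y yO] at this
    omega
  have mu : ∀ x ∈ O.erase β, ∀ x' ∈ O.erase β, x' ≠ x → ¬ R β x x' →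
      #(N x ∩ N x') = #(N γ ∩ N z) := fun x hx x' hx' e h => by
    obtain ⟨g, hg, e1, e2, e3⟩ := nr h1 (mem_erase.1 hx).2 (mem_erase.1 hx').2
      (mem_erase.1 hx).1.symm e (mem_erase.1 hx').1 h hz
    rw [← e2, ← e3, ← Ns hg e1, ← Ns hg e1, ← smul_finset_inter, card_smul_finset]
  have c2 : 2 * #(N γ ∩ N z) ≤ #Γ := by
    rw [two_mul, ← Nc z zO]
    nth_rw 1 [← mu y yO z zO (fun e => disjoint_left.1 hD hy (e ▸ hz)) hb]
    rw [← card_union_of_disjoint (disjoint_left.2 fun x k1 k2 => r0 hy (Nγ ▸ (mem_inter.1 k2).1)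
      ((hN _ _).1 (mem_inter.1 k1).1))]
    exact card_le_card (union_subset inter_subset_right inter_subset_right)
  have c3 := card_nsmul_le_card_nsmul (s := (O.erase β).filter (Fx K))
    (t := (O.erase β).filter fun x => ¬ Fx K x) (R β) (m := #(Γ.filter fun x => ¬ Fx K x))
    (n := #(N γ ∩ N z)) (fun x hx => by
      obtain ⟨hx, hx'⟩ := mem_filter.1 hx
      obtain ⟨g, hg, e1, e2⟩ := tr h1 (mem_erase.1 hx).2 (mem_erase.1 hx).1.symm
      obtain ⟨m, hm, e3, e4⟩ := (hP.stab hβ).witt (g := g) ⟨hg, e1⟩ {x} (by simp [e2, hx', hγ])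
      refine Nat.cast_le.2 (card_le_card_of_injOn (m⁻¹ • ·) (fun t ht => ?_)
        fun _ _ _ _ e => smul_left_cancel _ e)
      obtain ⟨k1, k2⟩ := mem_filter.1 ht
      have : R β x (m⁻¹ • t) := by
        rw [← ri hm.1, hm.2, e3 x rfl, e2, smul_inv_smul]
        exact rb.2 k1
      exact (mem_bipartiteAbove _).2 ⟨mem_filter.2 ⟨mem_erase.2 ⟨(rm this).2.2.1,
        (rm this).2.2.2.2.2⟩, by rwa [← e4, smul_inv_smul]⟩, this⟩) (fun t ht => by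
      obtain ⟨ht, ht'⟩ := mem_filter.1 ht
      simp only [Fx, not_forall] at ht'
      obtain ⟨k, hk, e⟩ := ht'
      have k1 : ∀ x ∈ bipartiteBelow (R β) ((O.erase β).filter (Fx K)) t, R β x t ∧ R β x (k • t) :=
        fun x hx => by
          obtain ⟨hx, hx'⟩ := (mem_bipartiteBelow _).1 hx
          refine ⟨hx', ?_⟩
          rwa [← ri (hP.1 hk), hβ k hk, (mem_filter.1 hx).2 k hk] at hx'
      rcases (bipartiteBelow (R β) ((O.erase β).filter (Fx K)) t).eq_empty_or_nonempty with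
        e' | ⟨x, hx⟩
      · simp [e']
      rw [← mu t ht (k • t) (inv_erase hO.inv β k ⟨hP.1 hk, hβ k hk⟩ t ht) e
        (r1 (k1 x hx).1 (k1 x hx).2)]
      exact Nat.cast_le.2 (card_le_card fun x hx => mem_inter.2
        ⟨(hN _ _).2 (r3 (k1 x hx).1), (hN _ _).2 (r3 (k1 x hx).2)⟩))
  have a3 := dl_eq (K := K) (O.erase β)
  have a4 := card_eq K (O.erase β)
  have a5 := dl_erase (K := K) h2 hγ
  rw [← hU, dl, sum_union hD, ← dl, ← dl, d1, d2] at a5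
  have a6 := card_erase_add_one h1
  simp only [smul_eq_mul] at c3
  obtain ⟨i, hi⟩ : ∃ i, #(Γ.filter fun x => ¬ Fx K x) = i + 1 ∧ #(N γ ∩ N z) ≤ i ∧
    #((O.erase β).filter fun x => ¬ Fx K x) = #((O.erase β).filter (Fx K)) + 2 ∧
    2 * i < #((O.erase β).filter (Fx K)) := ⟨#(Γ.filter (Fx K)), by omega⟩
  rw [hi.1, hi.2.2.1] at c3
  nlinarith [hi.2.1, hi.2.2.2, Nat.mul_le_mul_left (#((O.erase β).filter (Fx K)) + 2) hi.2.1]

end Cfsg.Lib.Pron
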