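import Cfsg.Agent.Pron.F

/-!
# A pronormal subgroup of a transitive group moves more points than it fixes
-/

set_option autoImplicit false
set_option linter.unusedSectionVars false

namespace Cfsg.Lib.Pron

open Finset MulAction
open scoped Pointwise

variable {G : Type} [Group G] {Ω : Type} [MulAction G Ω] [DecidableEq Ω] {H K : Subgroup G} {n : ℕ}

theorem step [Fintype Ω] [Fintype G] [FaithfulSMul G Ω] (hA : AA n) (hP : Pro ⊤ K)
    (hO : Orb (⊤ : Subgroup G) (univ : Finset Ω)) (hn : #(univ : Finset Ω) ≤ n) {x : Ω}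
    (hx : ¬ Fx K x) : 1 ≤ dl K (univ : Finset Ω) := by
  classical
  by_contra! hd
  obtain ⟨α, -, hα⟩ := exists_fx (K := K) ⟨x, mem_univ x⟩
    (hd.trans_le (by exact_mod_cast card_pos.2 ⟨x, mem_univ x⟩))
  have G1 := hO.gd hP (mem_univ α) hα (not_le.1 fun e => by
    have := hO.blk hA hP hn ⟨x, mem_univ _, hx⟩ (mem_univ α) hα e
    omega)
  have x1 : x ∈ univ.erase α := mem_erase.2 ⟨fun e => hx (e ▸ hα), mem_univ _⟩
  have c1 := card_erase_add_one (mem_univ α)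
  have P1 := hP.stab hα
  have d1 := G1.one_le hA P1 (by omega) ⟨x, x1⟩
  have e1 := dl_erase (mem_univ α) hα
  have O1 := G1.orb_of hA P1 (by omega) (by omega)
  have T2 := O1.tr_two hA P1 (by omega) ⟨x, x1, hx⟩ (by omega)
  have T3 := hO.tr_succ (mem_univ α) T2
  have a1 := dl_eq (K := K) (univ : Finset Ω)
  have a2 := card_eq K (univ : Finset Ω)
  have hS : ∀ x : Ω, x ∈ univ.filter (fun x => ¬ Fx K x) ↔ ¬ Fx K x := by simp
  generalize univ.filter (fun x : Ω => ¬ Fx K x) = S at hS a1 a2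
  have hf : Fintype.card Ω = 2 * #S := by rw [← card_univ]; omega
  have h4 : 4 ≤ #S := by_contra fun e => small hP hS hf.ge ⟨x, hx⟩ (T3.mono (by omega))
  obtain ⟨β, b1, hβ⟩ := exists_fx (K := K) ⟨x, x1⟩ (by omega)
  have G2 := O1.gd P1 b1 hβ (not_le.1 fun e => by
    have := O1.blk hA P1 (by omega) ⟨x, x1, hx⟩ b1 hβ e
    omega)
  have O2 : Orb _ _ := ⟨G2.inv, fun a ha b hb => by
    obtain ⟨g, hg, k1, k2⟩ := T2.two b1 (mem_erase.1 ha).2 b1 (mem_erase.1 hb).2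
      (mem_erase.1 ha).1.symm (mem_erase.1 hb).1.symm
    exact ⟨g, ⟨hg, k1⟩, k2⟩⟩
  have x2 : x ∈ (univ.erase α).erase β := mem_erase.2 ⟨fun e => hx (e ▸ hβ), x1⟩
  have c2 := card_erase_add_one b1
  have P2 := P1.stab hβ
  have e2 := dl_erase b1 hβ
  obtain ⟨γ, g1, hγ⟩ := exists_fx (K := K) ⟨x, x2⟩ (by omega)
  by_cases σ : 2 ≤ #(bl (⊤ ⊓ stabilizer G α ⊓ stabilizer G β) K ((univ.erase α).erase β) γ)
  · have := O2.blk hA P2 (by omega) ⟨x, x2, hx⟩ g1 hγ σ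
    exact sqs hP (T3.mono (by omega)) hS hf hα hβ (mem_erase.1 b1).1.symm g1 O2 (by omega)
  have G3 := O2.gd P2 g1 hγ (not_le.1 σ)
  have x3 : x ∈ ((univ.erase α).erase β).erase γ := mem_erase.2 ⟨fun e => hx (e ▸ hγ), x2⟩
  have c3 := card_erase_add_one g1
  have P3 := P2.stab hγ
  have e3 := dl_erase g1 hγ
  by_cases O3 : Orb (⊤ ⊓ stabilizer G α ⊓ stabilizer G β ⊓ stabilizer G γ)
    (((univ.erase α).erase β).erase γ)
  · exact endgame hP T3 hS hf (by omega) fun w hw => mindeg (hO.tr_succ (mem_univ α) (O1.tr_succ b1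
      (O2.tr_succ g1 (O3.tr_one x3)))) hf h4 (not_alt hP hS hf.ge (by omega)) hw
  by_cases h : ∀ y ∈ ((univ.erase α).erase β).erase γ, dl K (ob (⊤ ⊓ stabilizer G α ⊓ stabilizer G β ⊓
    stabilizer G γ) (((univ.erase α).erase β).erase γ) y) = 1
  · exact allone hA P2 O2 (by omega) g1 hγ G3 O3 fun y hy => ⟨h y hy, (orb_ob G3.inv y).tr_two hA P3
      ((card_le_card ob_sub).trans (by omega)) (G3.ob_mv hy) (h y hy)⟩
  push Not at h
  obtain ⟨y, hy, h⟩ := h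
  have k1 := hA G Ω _ K _ P3 (orb_ob G3.inv y) ((card_le_card ob_sub).trans_lt (by omega))
    (G3.ob_mv hy)
  obtain ⟨z, hz⟩ : (((univ.erase α).erase β).erase γ \ ob (⊤ ⊓ stabilizer G α ⊓ stabilizer G β ⊓
      stabilizer G γ) (((univ.erase α).erase β).erase γ) y).Nonempty :=
    sdiff_nonempty.2 fun e => O3 (subset_antisymm e ob_sub ▸ orb_ob G3.inv y)
  have k2 : #(((univ.erase α).erase β).erase γ \ ob (⊤ ⊓ stabilizer G α ⊓ stabilizer G β ⊓
      stabilizer G γ) (((univ.erase α).erase β).erase γ) y) < n :=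
    (card_le_card sdiff_subset).trans_lt (by omega)
  have k3 := (G3.sdiff y).one_le hA P3 k2 ⟨z, hz⟩
  have k4 := dl_sdiff (K := K) (ob_sub (H := ⊤ ⊓ stabilizer G α ⊓ stabilizer G β ⊓ stabilizer G γ)
    (U := ((univ.erase α).erase β).erase γ) (x := y))
  exact rank3 hA P1 O1 (by omega) b1 g1 hβ hγ T2 ((G3.sdiff y).orb_of hA P3 k2 (by omega))
    (orb_ob G3.inv y) (sdiff_union_of_subset ob_sub) sdiff_disjoint (by omega) (by omega)
    (((G3.sdiff y).ob_mv hz).imp fun _ h => ⟨ob_sub h.1, h.2⟩)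

theorem Pro.map {G' : Type} [Group G'] (hP : Pro H K) (ψ : H →* G') (hψ : Function.Surjective ψ) :
    Pro ⊤ ((K.subgroupOf H).map ψ) := by
  refine ⟨le_top, fun g _ L h1 h2 => ?_⟩
  obtain ⟨g, rfl⟩ := hψ g
  obtain ⟨_, ⟨w, hw, rfl⟩, e⟩ := hP.2 g g.2 ((L.comap ψ).map H.subtype)
    (fun k hk => ⟨⟨k, hP.1 hk⟩, h1 ⟨_, hk, rfl⟩, rfl⟩) fun k hk =>
      ⟨g * ⟨k, hP.1 hk⟩ * g⁻¹, by simpa using h2 _ ⟨⟨k, hP.1 hk⟩, hk, rfl⟩, rfl⟩
  refine ⟨ψ w, hw, fun k => ⟨?_, ?_⟩⟩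
  · rintro ⟨k, hk, rfl⟩
    exact ⟨w⁻¹ * g * k * (w⁻¹ * g)⁻¹, (e k).1 hk, by simp⟩
  · rintro ⟨k', hk, e'⟩
    refine ⟨(w⁻¹ * g)⁻¹ * k' * (w⁻¹ * g), (e _).2 ?_, by simp [e', mul_assoc]⟩
    simpa [mul_assoc, Subgroup.mem_subgroupOf] using hk

theorem AA_succ (hA : AA n) : AA (n + 1) := by
  intro G _ Ω _ _ H K O hP hO hn ⟨x, hx, hx'⟩
  classical
  let _ : MulAction H O :=
    { smul := fun h x => ⟨h.1 • x.1, hO.inv _ h.2 _ x.2⟩
      one_smul := fun x => Subtype.ext (one_smul G x.1)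
      mul_smul := fun a b x => Subtype.ext (mul_smul a.1 b.1 x.1) }
  have k : ∀ y : O, Fx ((K.subgroupOf H).map (toPermHom H O).rangeRestrict) y ↔ Fx K y.1 := fun y =>
    ⟨fun h k hk => congrArg Subtype.val (h _ ⟨⟨k, hP.1 hk⟩, hk, rfl⟩), fun h => by
      rintro _ ⟨k, hk, rfl⟩
      exact Subtype.ext (h k hk)⟩
  have := step (Ω := O) (x := ⟨x, hx⟩) hA (hP.map _ (toPermHom H O).rangeRestrict_surjective)
    ⟨by simp, fun a _ b _ => by
      obtain ⟨g, hg, e⟩ := hO.tr a a.2 b b.2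
      exact ⟨(toPermHom H O).rangeRestrict ⟨g, hg⟩, trivial, Subtype.ext e⟩⟩
    (by simpa using Nat.lt_succ_iff.1 hn) (mt (k _).1 hx')
  rw [dl, ← sum_coe_sort]
  simpa only [dl, k] using this

theorem aa (n : ℕ) : AA n := by
  induction n with
  | zero => exact fun _ _ _ _ _ _ _ _ _ _ h => absurd h (Nat.not_lt_zero _)
  | succ n ih => exact AA_succ ih

end Cfsg.Lib.Pron
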